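import Cfsg.Agent.Lib.ElusF.CountP
import Cfsg.Agent.Lib.ElusQ.Disc
import Cfsg.Agent.Lib.ElusQ.Syl

/-!
# Counting totally singular subspaces through frames
-/

set_option autoImplicit false
set_option linter.unusedSectionVars false
set_option linter.style.haveILetI false
set_option linter.unusedVariables false
set_option linter.unusedSimpArgs false

open Module QuadraticMap

universe u v

namespace Cfsg.Agent.Lib.ElusT.Count

open Cfsg.Agent.Lib.ElusF.Form Cfsg.Agent.Lib.ElusQ.Disc Cfsg.Agent.Lib.ElusQ.Syl Cfsg.Agent.Lib.ElusF.Step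

variable {F : Type u} [Field F] [Fintype F] {V : Type v} [AddCommGroup V] [Module F V]
  [FiniteDimensional F V] {q : ℕ}

/-- Totally singular frames. -/
def TSF (Q : QuadraticForm F V) (k : ℕ) : Set (Fin k → V) :=
  {u | LinearIndependent F u ∧ (∀ i, Q (u i) = 0) ∧ ∀ i j, polarBilin Q (u i) (u j) = 0}

variable {Q : QuadraticForm F V}

theorem polar_span {k : ℕ} {u : Fin k → V} (h : ∀ i j, polarBilin Q (u i) (u j) = 0) :
    ∀ x ∈ Submodule.span F (Set.range u), ∀ y ∈ Submodule.span F (Set.range u), polarBilin Q x y = 0 := by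
  have h1 : ∀ i, Submodule.span F (Set.range u) ≤ LinearMap.ker (polarBilin Q (u i)) := by
    intro i
    rw [Submodule.span_le]
    rintro _ ⟨j, rfl⟩
    exact h i j
  intro x hx y hy
  have h2 : Submodule.span F (Set.range u) ≤ LinearMap.ker ((polarBilin Q).flip y) := by
    rw [Submodule.span_le]
    rintro _ ⟨i, rfl⟩
    exact h1 i hy
  exact h2 hx

theorem Q_add_of_polar {x y : V} (h : polarBilin Q x y = 0) : Q (x + y) = Q x + Q y := by
  have h1 : polar (⇑Q) x y = 0 := h
  rw [polar] at h1
  linear_combination h1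

theorem Q_span {k : ℕ} {u : Fin k → V} (h0 : ∀ i, Q (u i) = 0) (h : ∀ i j, polarBilin Q (u i) (u j) = 0) :
    ∀ x ∈ Submodule.span F (Set.range u), Q x = 0 := by
  intro x hx
  induction hx using Submodule.span_induction with
  | mem x hx =>
    obtain ⟨i, rfl⟩ := hx
    exact h0 i
  | zero => simp
  | add a b ha hb h1 h2 =>
    rw [Q_add_of_polar (polar_span h a ha b hb), h1, h2, add_zero]
  | smul c a ha h1 =>
    rw [QuadraticMap.map_smul, h1, smul_zero]

theorem tsf_iff {k : ℕ} (s : Fin k → V) :
    (LinearIndependent F s ∧ ∀ w ∈ Submodule.span F (Set.range s), Q w = 0) ↔ s ∈ TSF Q k := by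
  constructor
  · rintro ⟨h1, h2⟩
    refine ⟨h1, fun i => h2 _ (Submodule.subset_span ⟨i, rfl⟩), fun i j => ?_⟩
    have h3 := h2 _ (Submodule.subset_span ⟨i, rfl⟩)
    have h4 := h2 _ (Submodule.subset_span ⟨j, rfl⟩)
    have h5 : Q (s i + s j) = 0 := h2 _ (Submodule.add_mem _ (Submodule.subset_span ⟨i, rfl⟩) (Submodule.subset_span ⟨j, rfl⟩))
    change polar (⇑Q) _ _ = 0
    rw [polar, h3, h4, h5]
    simp
  · rintro ⟨h1, h2, h3⟩
    exact ⟨h1, Q_span h2 h3⟩

variable (hSy : LinearMap.BilinForm.IsSymm (polarBilin Q)) (hN : (polarBilin Q).Nondegenerate)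

include hSy hN

/-- Complements of `S` in `S^⊥` are nondegenerate. -/
theorem nd_compl {S C : Submodule F V} (hS : ∀ x ∈ S, ∀ y ∈ S, polarBilin Q x y = 0)
    (hsup : S ⊔ C = (fm_of_symm hSy hN).orth S) (hdisj : Disjoint S C) :
    Nd (fun u v => polarBilin Q u v) C := by
  have hB := fm_of_symm hSy hN
  intro c hc h
  have hcO : c ∈ hB.orth S := by
    rw [← hsup]
    exact Submodule.mem_sup_right hc
  have h1 : c ∈ S := by
    rw [← hB.orth_orth S]
    intro w hw
    rw [← hsup] at hw
    obtain ⟨a, ha, b, hb, rfl⟩ := Submodule.mem_sup.mp hw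
    change polarBilin Q (a + b) c = 0
    have h5 : polarBilin Q b c = polarBilin Q c b := hSy.eq b c
    have h6 : polarBilin Q c b = 0 := h b hb
    have h7 : polarBilin Q a c = 0 := hcO a ha
    rw [map_add, LinearMap.add_apply, h7, h5, h6, add_zero]
  exact Submodule.disjoint_def.mp hdisj c h1 hc

/-- The dimension of a complement. -/
theorem finrank_compl {S C : Submodule F V} (hsup : S ⊔ C = (fm_of_symm hSy hN).orth S) (hdisj : Disjoint S C) :
    finrank F C + 2 * finrank F S = finrank F V := by
  have hB := fm_of_symm hSy hN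
  have h1 := hB.finrank_orth S
  have h2 := Submodule.finrank_sup_add_finrank_inf_eq S C
  rw [hsup, hdisj.eq_bot, finrank_bot, add_zero] at h2
  omega

theorem exists_compl {S : Submodule F V} (hS : ∀ x ∈ S, ∀ y ∈ S, polarBilin Q x y = 0) :
    ∃ C : Submodule F V, S ⊔ C = (fm_of_symm hSy hN).orth S ∧ Disjoint S C := by
  have hB := fm_of_symm hSy hN
  obtain ⟨Z, hZ⟩ := Submodule.exists_isCompl S
  have hSP : S ≤ hB.orth S := fun x hx y hy => hS y hy x hx
  refine ⟨hB.orth S ⊓ Z, ?_, ?_⟩
  · rw [inf_comm, ← sup_inf_assoc_of_le _ hSP, hZ.sup_eq_top, top_inf_eq]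
  · exact hZ.disjoint.mono_right inf_le_right

/-- The number of singular vectors of `S^⊥`. -/
theorem card_sing_orth (hq : Fintype.card F = q) {S C : Submodule F V}
    (hS0 : ∀ x ∈ S, Q x = 0) (hS : ∀ x ∈ S, ∀ y ∈ S, polarBilin Q x y = 0)
    (hsup : S ⊔ C = (fm_of_symm hSy hN).orth S) (hdisj : Disjoint S C) :
    Nat.card {x // x ∈ (fm_of_symm hSy hN).orth S ∧ Q x = 0} = q ^ finrank F S * Nat.card {c : C // Q (c : V) = 0} := by
  classical
  have hB := fm_of_symm hSy hN
  have hSC : ∀ s ∈ S, ∀ c ∈ C, polarBilin Q s c = 0 := by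
    intro s hs c hc
    have : c ∈ hB.orth S := by
      rw [← hsup]
      exact Submodule.mem_sup_right hc
    exact this s hs
  have hcardS : Nat.card S = q ^ finrank F S := card_eq_pow_finrank hq S
  rw [← hcardS, ← Nat.card_prod]
  symm
  apply Nat.card_congr
  refine
    { toFun := fun p => ⟨(p.1 : V) + (p.2.1 : V), ?_, ?_⟩
      invFun := fun x => ?_
      left_inv := ?_
      right_inv := ?_ }
  · rw [← hsup]
    exact Submodule.add_mem_sup p.1.2 p.2.1.2
  · rw [Q_add_of_polar (hSC _ p.1.2 _ p.2.1.2), hS0 _ p.1.2, p.2.2, add_zero]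
  · have hx : x.1 ∈ S ⊔ C := by
      rw [hsup]
      exact x.2.1
    let a := (Submodule.mem_sup.mp hx).choose
    have ha := (Submodule.mem_sup.mp hx).choose_spec
    let b := ha.2.choose
    have hb := ha.2.choose_spec
    refine (⟨a, ha.1⟩, ⟨⟨b, hb.1⟩, ?_⟩)
    have h1 : Q x.1 = 0 := x.2.2
    rw [← hb.2, Q_add_of_polar (hSC _ ha.1 _ hb.1), hS0 _ ha.1, zero_add] at h1
    exact h1
  · intro p
    have hsum : (p.1 : V) + (p.2.1 : V) ∈ S ⊔ C := Submodule.add_mem_sup p.1.2 p.2.1.2
    have ha := (Submodule.mem_sup.mp hsum).choose_spec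
    have hb := ha.2.choose_spec
    set a := (Submodule.mem_sup.mp hsum).choose with hadef
    set b := ha.2.choose with hbdef
    have h1 : a - (p.1 : V) = (p.2.1 : V) - b := by
      rw [sub_eq_sub_iff_add_eq_add, add_comm (p.2.1 : V)]
      exact hb.2
    have h2 : a - (p.1 : V) = 0 := Submodule.disjoint_def.mp hdisj _ (S.sub_mem ha.1 p.1.2) (by
      rw [h1]
      exact C.sub_mem p.2.1.2 hb.1)
    have h3 : a = p.1 := sub_eq_zero.mp h2
    have h4 : b = p.2.1 := by
      rw [h2] at h1
      exact (sub_eq_zero.mp h1.symm).symm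
    apply Prod.ext
    · exact Subtype.ext h3
    · exact Subtype.ext (Subtype.ext h4)
  · intro x
    apply Subtype.ext
    have hx : x.1 ∈ S ⊔ C := by
      rw [hsup]
      exact x.2.1
    exact (Submodule.mem_sup.mp hx).choose_spec.2.choose_spec.2

/-- The number of singular vectors of `S^⊥` outside `S`. -/
theorem card_fiber (hq : Fintype.card F = q) {S C : Submodule F V}
    (hS0 : ∀ x ∈ S, Q x = 0) (hS : ∀ x ∈ S, ∀ y ∈ S, polarBilin Q x y = 0)
    (hsup : S ⊔ C = (fm_of_symm hSy hN).orth S) (hdisj : Disjoint S C) :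
    Nat.card {x // (x ∈ (fm_of_symm hSy hN).orth S ∧ Q x = 0) ∧ x ∉ S} =
      q ^ finrank F S * (Nat.card {c : C // Q (c : V) = 0} - 1) := by
  classical
  have hB := fm_of_symm hSy hN
  haveI : Finite V := Module.finite_of_finite F
  have h1 := card_sing_orth hSy hN hq hS0 hS hsup hdisj
  have hSP : S ≤ hB.orth S := fun x hx y hy => hS y hy x hx
  rw [Nat.mul_sub, mul_one, ← h1, ← card_eq_pow_finrank hq S]
  have h2 : ({x | (x ∈ (fm_of_symm hSy hN).orth S ∧ Q x = 0) ∧ x ∉ S} : Set V) =
      {x | x ∈ (fm_of_symm hSy hN).orth S ∧ Q x = 0} \ (S : Set V) := rfl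
  have h3 : Nat.card {x // (x ∈ (fm_of_symm hSy hN).orth S ∧ Q x = 0) ∧ x ∉ S} =
      ({x | (x ∈ (fm_of_symm hSy hN).orth S ∧ Q x = 0) ∧ x ∉ S} : Set V).ncard := rfl
  have hsub : (S : Set V) ⊆ {x | x ∈ (fm_of_symm hSy hN).orth S ∧ Q x = 0} := fun x hx => ⟨hSP hx, hS0 x hx⟩
  rw [h3, h2, Set.ncard_sdiff hsub (Set.toFinite _)]
  rfl

/-- The number of totally singular frames. -/
theorem card_TSF (hq : Fintype.card F = q) {m : ℕ} {A : ℕ → ℕ}
    (hA : ∀ j < m, ∀ S C : Submodule F V, finrank F S = j → (∀ x ∈ S, Q x = 0) →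
      (∀ x ∈ S, ∀ y ∈ S, polarBilin Q x y = 0) → S ⊔ C = (fm_of_symm hSy hN).orth S → Disjoint S C →
      Nat.card {c : C // Q (c : V) = 0} = A j) :
    ∀ k, k ≤ m → Nat.card (TSF Q k) = ∏ j ∈ Finset.range k, (q ^ j * (A j - 1)) := by
  classical
  have hB := fm_of_symm hSy hN
  haveI : Finite V := Module.finite_of_finite F
  intro k
  induction k with
  | zero =>
    intro _
    simp only [Finset.range_zero, Finset.prod_empty]
    have : Unique (TSF Q 0) := by
      refine ⟨⟨⟨fun i => i.elim0, ?_, ?_, ?_⟩⟩, ?_⟩
      · exact linearIndependent_empty_type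
      · exact fun i => i.elim0
      · exact fun i => i.elim0
      · rintro ⟨u, hu⟩
        apply Subtype.ext
        funext i
        exact i.elim0
    exact Nat.card_unique
  | succ k ih =>
    intro hk
    rw [Finset.prod_range_succ, ← ih (by omega)]
    let φ : TSF Q (k + 1) → TSF Q k := fun u =>
      ⟨Fin.init u.1, (linearIndependent_finSnoc.1 (by
        rw [Fin.snoc_init_self]
        exact u.2.1)).1, fun i => u.2.2.1 _, fun i j => u.2.2.2 _ _⟩
    have hfib : ∀ u : TSF Q k, Nat.card {f // φ f = u} = q ^ k * (A k - 1) := by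
      intro u
      set S := Submodule.span F (Set.range u.1) with hSdef
      have hSd : finrank F S = k := by
        have := finrank_span_eq_card u.2.1
        simpa using this
      have hS0 : ∀ x ∈ S, Q x = 0 := Q_span u.2.2.1 u.2.2.2
      have hS : ∀ x ∈ S, ∀ y ∈ S, polarBilin Q x y = 0 := polar_span u.2.2.2
      obtain ⟨C, hsup, hdisj⟩ := exists_compl hSy hN hS
      have h1 := card_fiber hSy hN hq hS0 hS hsup hdisj
      rw [hA k (by omega) S C hSd hS0 hS hsup hdisj, hSd] at h1
      rw [← h1]
      apply Nat.card_congr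
      have hP : ∀ x, x ∈ hB.orth S ↔ ∀ i, polarBilin Q (u.1 i) x = 0 := by
        intro x
        constructor
        · intro h i
          exact h _ (Submodule.subset_span ⟨i, rfl⟩)
        · intro h y hy
          induction hy using Submodule.span_induction with
          | mem y hy =>
            obtain ⟨j, rfl⟩ := hy
            exact h j
          | zero =>
            change polarBilin Q 0 x = 0
            simp
          | add a b _ _ ha hb =>
            change polarBilin Q (a + b) x = 0
            rw [map_add, LinearMap.add_apply]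
            have h3 : polarBilin Q a x = 0 := ha
            have h4 : polarBilin Q b x = 0 := hb
            rw [h3, h4, add_zero]
          | smul c a _ ha =>
            change polarBilin Q (c • a) x = 0
            rw [map_smul, LinearMap.smul_apply]
            have h3 : polarBilin Q a x = 0 := ha
            rw [h3, smul_zero]
      exact
        { toFun := fun f => ⟨f.1.1 (Fin.last k), by
            obtain ⟨f, rfl⟩ := f
            refine ⟨⟨(hP _).mpr ?_, f.2.2.1 _⟩, ?_⟩
            · exact fun i => f.2.2.2 _ _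
            · intro hx
              have h1 := f.2.1
              rw [← Fin.snoc_init_self f.1, linearIndependent_finSnoc] at h1
              exact h1.2 (by simpa [φ] using hx)⟩
          invFun := fun x => ⟨⟨Fin.snoc u.1 x.1, by
              rw [linearIndependent_finSnoc]
              exact ⟨u.2.1, x.2.2⟩, by
              intro i
              induction i using Fin.lastCases with
              | last =>
                simp only [Fin.snoc_last]
                exact x.2.1.2
              | cast i =>
                simp only [Fin.snoc_castSucc]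
                exact u.2.2.1 i, by
              have hx := (hP x.1).1 x.2.1.1
              intro i j
              induction i using Fin.lastCases with
              | last =>
                induction j using Fin.lastCases with
                | last =>
                  simp only [Fin.snoc_last]
                  rw [polar_self', x.2.1.2, mul_zero]
                | cast j =>
                  simp only [Fin.snoc_last, Fin.snoc_castSucc]
                  have h5 : polarBilin Q x.1 (u.1 j) = polarBilin Q (u.1 j) x.1 := hSy.eq _ _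
                  rw [h5]
                  exact hx j
              | cast i =>
                induction j using Fin.lastCases with
                | last =>
                  simp only [Fin.snoc_last, Fin.snoc_castSucc]
                  exact hx i
                | cast j =>
                  simp only [Fin.snoc_castSucc]
                  exact u.2.2.2 i j⟩, by
              apply Subtype.ext
              funext i
              simp [φ, Fin.init]⟩
          left_inv := by
            rintro ⟨f, rfl⟩
            apply Subtype.ext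
            apply Subtype.ext
            simp [φ]
          right_inv := by
            intro x
            apply Subtype.ext
            simp }
    haveI : Fintype (TSF Q k) := Fintype.ofFinite _
    rw [Nat.card_congr (Equiv.sigmaFiberEquiv φ).symm, Nat.card_sigma]
    simp only [hfib, Finset.sum_const, smul_eq_mul, Finset.card_univ, Nat.card_eq_fintype_card]

/-- The number of totally singular subspaces. -/
theorem ts_count (hq : Fintype.card F = q) {m : ℕ} {A : ℕ → ℕ}
    (hA : ∀ j < m, ∀ S C : Submodule F V, finrank F S = j → (∀ x ∈ S, Q x = 0) →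
      (∀ x ∈ S, ∀ y ∈ S, polarBilin Q x y = 0) → S ⊔ C = (fm_of_symm hSy hN).orth S → Disjoint S C →
      Nat.card {c : C // Q (c : V) = 0} = A j) :
    Nat.card {W : Submodule F V // finrank F W = m ∧ ∀ w ∈ W, Q w = 0} * ∏ j ∈ Finset.range m, (q ^ (m - j) - 1) =
      ∏ j ∈ Finset.range m, (A j - 1) := by
  have hq0 : 0 < q := by
    rw [← hq]
    exact Fintype.card_pos
  have h1 := Cfsg.Agent.Lib.ElusF.CountP.card_pred_mul (V := V) hq (k := m) (fun W => ∀ w ∈ W, Q w = 0)
  have h2 : Nat.card {s : Fin m → V // LinearIndependent F s ∧ ∀ w ∈ Submodule.span F (Set.range s), Q w = 0} =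
      Nat.card (TSF Q m) := by
    apply Nat.card_congr
    apply Equiv.subtypeEquivRight
    intro s
    exact tsf_iff s
  rw [h2, card_TSF hSy hN hq hA m le_rfl, Fin.prod_univ_eq_prod_range (fun i => q ^ m - q ^ i) m] at h1
  have h3 : ∀ j ∈ Finset.range m, q ^ m - q ^ j = q ^ j * (q ^ (m - j) - 1) := by
    intro j hj
    have hj' := Finset.mem_range.mp hj
    rw [Nat.mul_sub, mul_one, ← pow_add, Nat.add_sub_cancel' hj'.le]
  rw [Finset.prod_congr rfl h3, Finset.prod_mul_distrib, Finset.prod_mul_distrib, mul_left_comm] at h1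
  exact Nat.eq_of_mul_eq_mul_left (Finset.prod_pos (fun j _ => pow_pos hq0 _)) h1

/-- A prime divisor of the number of totally singular subspaces. -/
theorem ts_dvd (hq : Fintype.card F = q) {m r : ℕ} (hr : r.Prime) {A : ℕ → ℕ}
    (hA : ∀ j < m, ∀ S C : Submodule F V, finrank F S = j → (∀ x ∈ S, Q x = 0) →
      (∀ x ∈ S, ∀ y ∈ S, polarBilin Q x y = 0) → S ⊔ C = (fm_of_symm hSy hN).orth S → Disjoint S C →
      Nat.card {c : C // Q (c : V) = 0} = A j)
    (h : r ∣ Nat.card {W : Submodule F V // finrank F W = m ∧ ∀ w ∈ W, Q w = 0}) :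
    ∃ j, j < m ∧ r ∣ A j - 1 := by
  have h1 : r ∣ ∏ j ∈ Finset.range m, (A j - 1) := by
    rw [← ts_count hSy hN hq hA]
    exact h.mul_right _
  obtain ⟨j, hj, hj'⟩ := (hr.prime.dvd_finsetProd_iff _).mp h1
  exact ⟨j, Finset.mem_range.mp hj, hj'⟩

end Cfsg.Agent.Lib.ElusT.Count
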