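import Cfsg.Agent.Lib.ElusQ.Model
import Cfsg.Agent.Lib.ElusQ.Pos
import Cfsg.Agent.Lib.ElusF.SpPos2

/-!
# Invariant totally isotropic subspaces for isometries of symmetric forms
-/

set_option autoImplicit false
set_option linter.unusedSectionVars false
set_option linter.style.haveILetI false
set_option linter.unusedVariables false
set_option linter.unusedSimpArgs false

open Polynomial Module

universe u v

namespace Cfsg.Agent.Lib.ElusT.TI

open Cfsg.Agent.Lib.ElusL.Basic Cfsg.Agent.Lib.ElusL.Flag Cfsg.Agent.Lib.ElusL.Cyc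
  Cfsg.Agent.Lib.ElusL.Pos Cfsg.Agent.Lib.ElusF.Form Cfsg.Agent.Lib.ElusF.Step
  Cfsg.Agent.Lib.ElusF.Split Cfsg.Agent.Lib.ElusF.SpNeg
  Cfsg.Agent.Lib.ElusQ.Disc Cfsg.Agent.Lib.ElusQ.Oz Cfsg.Agent.Lib.ElusQ.Pos

variable {F : Type u} [Field F] [Fintype F] {q r : ℕ} {V : Type v} [AddCommGroup V] [Module F V]
  [FiniteDimensional F V] {B : LinearMap.BilinForm F V} {T : End F V}

/-- A singular vector in a subspace of dimension at least three. -/
theorem exists_sing (B : LinearMap.BilinForm F V) {U : Submodule F V} (hU : 2 < finrank F U) :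
    ∃ u ∈ U, u ≠ 0 ∧ B u u = 0 := by
  obtain ⟨u, hu0, hu⟩ := Cfsg.Agent.Lib.ElusF.CW.exists_ne_zero_quad (ι := Unit)
    (fun _ => (B.restrict U : U →ₗ[F] U →ₗ[F] F)) (by simpa using hU)
  exact ⟨u, u.2, fun h => hu0 (Subtype.ext h), hu ()⟩

/-- Totally isotropic subspaces in the fixed part. -/
theorem cap0' (h : Oz B T r) (hr : r ≠ 0) (hrF : (r : F) ≠ 0) {t : ℕ} (ht : 2 * t < finrank F (K0 T)) :
    ∃ W : Submodule F V, W ≤ K0 T ∧ TI (fun u v => B u v) W ∧ Inv T W ∧ finrank F W = t := by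
  have hB := h.fm
  have hinj := h.inj hr
  have hss : SS T := ss_of_pow hrF one_ne_zero (by rw [h.pow, one_smul])
  obtain ⟨W, h1, h3, h4, h5⟩ := cap hB h.isoF hinj hss (e := 2) (d := 1) (U₀ := K0 T)
    (fun U hU _ _ hpos => by
      obtain ⟨u, huU, hu0, hu⟩ := exists_sing B hpos
      refine ⟨Submodule.span F {u}, ?_, ?_, ?_, finrank_span_singleton hu0⟩
      · rw [Submodule.span_le, Set.singleton_subset_iff]
        exact huU
      · intro a ha b hb
        obtain ⟨c, rfl⟩ := Submodule.mem_span_singleton.mp ha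
        obtain ⟨d, rfl⟩ := Submodule.mem_span_singleton.mp hb
        simp [hu]
      · exact inv_of_le_K0 ((Submodule.span_le.mpr (Set.singleton_subset_iff.mpr huU)).trans hU))
    t (K0 T) le_rfl (nd_K0 h hrF) (inv_ker T _) (by
      rcases Nat.eq_zero_or_pos t with h0 | h0
      · exact Or.inl h0
      · right
        omega)
  exact ⟨W, h1, h3, h4, by simpa using h5⟩

/-- The Chevalley--Warning argument: an isotropic cyclic subspace. -/
theorem exists_cyc (h : Oz B T r) (h2 : (2 : F) ≠ 0) (hr : r.Prime) (hr2 : r ≠ 2) (hrF : (r : F) ≠ 0)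
    {g : F[X]} (hg : Irreducible g) {E : Submodule F V}
    (hEg : E ≤ LinearMap.ker (Polynomial.aeval T g)) (hE1 : E ≤ K1 T r)
    (hd : 2 * g.natDegree ≤ finrank F E) :
    ∃ u ∈ E, u ≠ 0 ∧ TI (fun u v => B u v) (cyc T u) := by
  classical
  have hdeg : 0 < g.natDegree := hg.natDegree_pos
  have hg0 : g ≠ 0 := hg.ne_zero
  have hrO : Odd r := hr.odd_of_ne_two hr2
  have hrpos : 0 < r := hr.pos
  haveI : Finite V := Module.finite_of_finite F
  -- the forms
  let form : F[X] → (E →ₗ[F] E →ₗ[F] F) := fun P =>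
    LinearMap.mk₂ F (fun x y : E => B (x : V) (Polynomial.aeval T P (y : V)) + B (Polynomial.aeval T P (x : V)) (y : V))
      (fun a b c => by
        simp only [Submodule.coe_add, map_add, LinearMap.add_apply]
        ring)
      (fun c a b => by
        simp only [Submodule.coe_smul, map_smul, LinearMap.smul_apply, smul_eq_mul]
        ring)
      (fun a b c => by
        simp only [Submodule.coe_add, map_add, LinearMap.add_apply]
        ring)
      (fun c a b => by
        simp only [Submodule.coe_smul, map_smul, LinearMap.smul_apply, smul_eq_mul]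
        ring)
  let Φ : F[X] →ₗ[F] (E × E → F) :=
    { toFun := fun P p => form P p.1 p.2
      map_add' := by
        intro P R
        funext p
        simp only [form, LinearMap.mk₂_apply, map_add, LinearMap.add_apply, Pi.add_apply]
        ring
      map_smul' := by
        intro c P
        funext p
        simp only [form, LinearMap.mk₂_apply, map_smul, LinearMap.smul_apply, RingHom.id_apply, smul_eq_mul,
          Pi.smul_apply]
        ring }
  have hΦ : ∀ (P : F[X]) (x y : E), Φ P (x, y) =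
      B (x : V) (Polynomial.aeval T P (y : V)) + B (Polynomial.aeval T P (x : V)) (y : V) := fun _ _ _ => rfl
  have hmod : ∀ (P : F[X]) (y : E), Polynomial.aeval T P (y : V) = Polynomial.aeval T (P % g) (y : V) := by
    intro P y
    have h3 : Polynomial.aeval T g (y : V) = 0 := LinearMap.mem_ker.mp (hEg y.2)
    exact aeval_mod h3 P
  let D := Polynomial.degreeLT F g.natDegree
  have hDmem : ∀ P : F[X], P % g ∈ D := by
    intro P
    rw [Polynomial.mem_degreeLT, ← degree_eq_natDegree hg0]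
    exact EuclideanDomain.mod_lt P hg0
  have hDd : finrank F D = g.natDegree := by
    rw [LinearEquiv.finrank_eq (Polynomial.degreeLTEquiv F g.natDegree)]
    simp
  let Φ' : D →ₗ[F] (E × E → F) := Φ ∘ₗ D.subtype
  -- a kernel element
  let W₀ : D := ⟨(X - X ^ (r - 1)) % g, hDmem _⟩
  have hTr : ∀ x : V, T ((T ^ (r - 1)) x) = x := by
    intro x
    rw [← Module.End.mul_apply, ← pow_succ']
    have : r - 1 + 1 = r := by omega
    rw [this, h.pow]
    rfl
  have hW₀ : Φ' W₀ = 0 := by
    funext ⟨x, y⟩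
    change Φ ((X - X ^ (r - 1)) % g) (x, y) = 0
    rw [hΦ, ← hmod, ← hmod]
    simp only [map_sub, aeval_X, map_pow, LinearMap.sub_apply]
    have h1 : B (T (x : V)) (y : V) = B (x : V) ((T ^ (r - 1)) (y : V)) := by
      have := h.iso (x : V) ((T ^ (r - 1)) (y : V))
      rw [hTr] at this
      exact this
    have h3 : B ((T ^ (r - 1)) (x : V)) (y : V) = B (x : V) (T (y : V)) := by
      have := h.iso ((T ^ (r - 1)) (x : V)) (y : V)
      rw [hTr] at this
      exact this.symm
    rw [h1, h3]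
    ring
  have hEpos : 0 < finrank F E := by omega
  have hW₀ne : W₀ ≠ 0 := by
    intro hz
    have h1 : (X - X ^ (r - 1) : F[X]) % g = 0 := congrArg Subtype.val hz
    obtain ⟨⟨y, hy⟩, hy0⟩ := Module.finrank_pos_iff_exists_ne_zero.mp hEpos
    have hy0' : y ≠ 0 := fun h => hy0 (Subtype.ext h)
    apply hy0'
    have h3 := hmod (X - X ^ (r - 1)) ⟨y, hy⟩
    rw [h1, map_zero] at h3
    simp only [map_sub, aeval_X, map_pow, LinearMap.sub_apply, LinearMap.zero_apply] at h3
    have h4 : T y = (T ^ (r - 1)) y := sub_eq_zero.mp h3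
    have h5 : T (T y) = y := by
      rw [h4]
      exact hTr y
    obtain ⟨k, hk⟩ := hrO
    have h6 : ∀ n : ℕ, (T ^ (2 * n)) y = y := by
      intro n
      induction n with
      | zero => simp
      | succ n ih =>
        have : 2 * (n + 1) = 2 * n + 1 + 1 := by ring
        rw [this, pow_succ, pow_succ, Module.End.mul_apply, Module.End.mul_apply, h5, ih]
    have h7 : T y = y := by
      have h8 : (T ^ r) y = y := by
        rw [h.pow]
        rfl
      rw [hk, pow_succ', Module.End.mul_apply, h6] at h8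
      exact h8
    exact eq_zero_of_mem_of_fixed hrF (hE1 hy) h7
  -- the dimension of the range
  have hZd : 2 * finrank F (LinearMap.range Φ') < finrank F E := by
    have h1 := LinearMap.finrank_range_add_finrank_ker Φ'
    have h3 : 0 < finrank F (LinearMap.ker Φ') := by
      rcases Nat.eq_zero_or_pos (finrank F (LinearMap.ker Φ')) with h0 | h0
      · exfalso
        have h5 : LinearMap.ker Φ' = ⊥ := Submodule.finrank_eq_zero.mp h0
        have h6 : W₀ ∈ LinearMap.ker Φ' := hW₀
        rw [h5] at h6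
        exact hW₀ne ((Submodule.mem_bot F).mp h6)
      · exact h0
    rw [hDd] at h1
    omega
  let Z := LinearMap.range Φ'
  let b := finBasis F Z
  have hbP : ∀ j, ∃ P : F[X], ((b j : Z) : E × E → F) = Φ P := by
    intro j
    obtain ⟨P, hP⟩ := (b j).2
    exact ⟨P.1, hP.symm⟩
  choose P hP using hbP
  obtain ⟨u, hu0, hu⟩ := Cfsg.Agent.Lib.ElusF.CW.exists_ne_zero_quad (ι := Fin (finrank F Z))
    (fun j => form (P j)) (by simpa using hZd)
  have hZ : ∀ z : Z, (z : E × E → F) (u, u) = 0 := by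
    intro z
    have h1 : z = ∑ j, b.repr z j • b j := (b.sum_repr z).symm
    rw [h1]
    simp only [Submodule.coe_sum, Submodule.coe_smul, Finset.sum_apply, Pi.smul_apply, smul_eq_mul]
    apply Finset.sum_eq_zero
    intro j _
    rw [hP j]
    have := hu j
    change Φ (P j) (u, u) = 0 at this
    rw [this, mul_zero]
  have hc1 : ∀ P : F[X], B (u : V) (Polynomial.aeval T P (u : V)) = 0 := by
    intro P
    have h1 := hZ ⟨Φ' ⟨P % g, hDmem P⟩, ⟨_, rfl⟩⟩
    change Φ (P % g) (u, u) = 0 at h1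
    rw [hΦ, ← hmod] at h1
    have h3 : B (Polynomial.aeval T P (u : V)) (u : V) = B (u : V) (Polynomial.aeval T P (u : V)) := h.symm.eq _ _
    rw [h3] at h1
    have h4 : (2 : F) * B (u : V) (Polynomial.aeval T P (u : V)) = 0 := by
      linear_combination h1
    exact (mul_eq_zero.mp h4).resolve_left h2
  refine ⟨u, u.2, fun h0 => hu0 (Subtype.ext h0), ?_⟩
  rintro _ ⟨P, rfl⟩ _ ⟨R, rfl⟩
  change B (Polynomial.aeval T P (u : V)) (Polynomial.aeval T R (u : V)) = 0
  rw [adj_aeval' h hr.ne_zero]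
  have h1 : Polynomial.aeval (T ^ (r - 1)) P = Polynomial.aeval T (P.comp (X ^ (r - 1))) := by
    rw [Polynomial.aeval_comp]
    simp
  rw [h1, hcomm]
  exact hc1 _

/-- If the dimension is large there are isotropic minimal invariant subspaces. -/
theorem ti_large' (h : Oz B T r) (h2 : (2 : F) ≠ 0) (hq : Fintype.card F = q) (hr : r.Prime) (hr2 : r ≠ 2)
    (hrF : (r : F) ≠ 0) (hrq : ¬ r ∣ q)
    {U : Submodule F V} (hU₁ : U ≤ K1 T r) (hUi : Inv T U) (hlarge : r - 1 < finrank F U) :
    ∃ W : Submodule F V, W ≤ U ∧ TI (fun u v => B u v) W ∧ Inv T W ∧ finrank F W = orderOf (q : ZMod r) := by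
  classical
  set i := orderOf (q : ZMod r) with hidef
  have hPhi0 := Phi_ne_zero (F := F) hr
  have hdeg : ∀ g, Irreducible g → g ∣ Phi F r → g.natDegree = i :=
    fun g hg hgd => natDegree_factor hq hr hrF hrq hg hgd
  have hsep : (Phi F r).Separable := by
    have h1 : (X ^ r - C (1 : F) : F[X]).Separable := separable_X_pow_sub_C 1 hrF one_ne_zero
    apply h1.of_dvd
    refine ⟨X - 1, ?_⟩
    rw [C_1, ← Phi_mul, mul_comm]
  obtain ⟨g, hg, hgd, hgl⟩ : ∃ g, Irreducible g ∧ g ∣ Phi F r ∧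
      g.natDegree < finrank F (U ⊓ LinearMap.ker (Polynomial.aeval T g) : Submodule F V) := by
    by_contra hcon
    push Not at hcon
    have h1 := finrank_ker_le hsep hUi (fun g hg hgd => hcon g hg hgd) _ (Phi F r) rfl dvd_rfl
    rw [inf_eq_left.mpr hU₁, Phi_natDegree hr] at h1
    omega
  have hgi := hdeg g hg hgd
  set E := U ⊓ LinearMap.ker (Polynomial.aeval T g) with hE
  have hEi : Inv T E := h.fm.inv_inf hUi (inv_ker T g)
  have hipos : 0 < i := by
    rw [← hgi]
    exact hg.natDegree_pos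
  have hdvd : i ∣ finrank F E := by
    rw [← hgi]
    exact natDegree_dvd_inf hg hUi
  have hE2 : 2 * g.natDegree ≤ finrank F E := by
    obtain ⟨c, hc⟩ := hdvd
    rw [hgi, hc] at hgl
    rw [hc, hgi]
    have : 1 < c := by
      by_contra h
      have : c ≤ 1 := by omega
      have h2 : i * c ≤ i * 1 := Nat.mul_le_mul_left i this
      omega
    calc 2 * i = i * 2 := mul_comm _ _
      _ ≤ i * c := Nat.mul_le_mul_left i this
  obtain ⟨u, huE, hu0, hu⟩ := exists_cyc h h2 hr hr2 hrF hg (E := E) inf_le_right (inf_le_left.trans hU₁) hE2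
  refine ⟨cyc T u, (cyc_le hEi huE).trans inf_le_left, hu, cyc_inv T u, ?_⟩
  rw [← hgi]
  exact cyc_finrank hg hu0 (LinearMap.mem_ker.mp huE.2)

/-- Combining isotropic subspaces of the fixed and fixed-point-free parts. -/
theorem combine' (h : Oz B T r) (hrF : (r : F) ≠ 0)
    {W₀ W₁ : Submodule F V} (h0 : W₀ ≤ K0 T) (h1 : W₁ ≤ K1 T r)
    (ht0 : TI (fun u v => B u v) W₀) (ht1 : TI (fun u v => B u v) W₁) (hi0 : Inv T W₀) (hi1 : Inv T W₁) :
    TI (fun u v => B u v) (W₀ ⊔ W₁) ∧ Inv T (W₀ ⊔ W₁) ∧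
      finrank F (W₀ ⊔ W₁ : Submodule F V) = finrank F W₀ + finrank F W₁ := by
  refine ⟨ti_sup h.fm ht0 ht1 ?_, inv_sup hi0 hi1, finrank_sup_of_disjoint ?_⟩
  · intro v hv w hw
    exact orth01 h.fm h.isoF hrF (mem_fix.mp (h0 hw)) (h1 hv)
  · rw [Submodule.disjoint_def]
    intro v hv hv'
    exact eq_zero_of_mem_of_fixed hrF (h1 hv') (mem_fix.mp (h0 hv))

/-- Invariant isotropic subspaces of the fixed-point-free part, degree odd. -/
theorem K1_odd (h : Oz B T r) (h2 : (2 : F) ≠ 0) (hq : Fintype.card F = q) (hr : r.Prime) (hrO : Odd r)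
    (hrF : (r : F) ≠ 0) (hrq : ¬ r ∣ q) (hi : Odd (orderOf (q : ZMod r))) {s : ℕ}
    (hs : 2 * (orderOf (q : ZMod r) * s) ≤ finrank F (K1 T r)) :
    ∃ W : Submodule F V, W ≤ K1 T r ∧ TI (fun u v => B u v) W ∧ Inv T W ∧
      finrank F W = orderOf (q : ZMod r) * s := by
  have hipos : 0 < orderOf (q : ZMod r) := hi.pos
  have hinj := h.inj hr.ne_zero
  have hss : SS T := ss_of_pow hrF one_ne_zero (by rw [h.pow, one_smul])
  exact cap h.fm h.isoF hinj hss (e := 0) (d := orderOf (q : ZMod r)) (U₀ := K1 T r)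
    (fun U hU _ hUi hpos => ti_odd h h2 hq hr hrO hrF hrq hi hU hUi hpos) s (K1 T r) le_rfl (nd_K1 h hrF)
    (inv_ker T _) (by
      rcases Nat.eq_zero_or_pos s with h0 | h0
      · exact Or.inl h0
      · right
        obtain ⟨s', rfl⟩ : ∃ s', s = s' + 1 := ⟨s - 1, by omega⟩
        simp only [Nat.add_sub_cancel, add_zero]
        have h3 : orderOf (q : ZMod r) * s' < orderOf (q : ZMod r) * (s' + 1) :=
          Nat.mul_lt_mul_of_pos_left (by omega) hipos
        have h4 : 2 * orderOf (q : ZMod r) * s' = 2 * (orderOf (q : ZMod r) * s') := by ring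
        omega)

/-- Invariant isotropic subspaces of the fixed-point-free part, large dimension. -/
theorem K1_large (h : Oz B T r) (h2 : (2 : F) ≠ 0) (hq : Fintype.card F = q) (hr : r.Prime) (hr2 : r ≠ 2)
    (hrF : (r : F) ≠ 0) (hrq : ¬ r ∣ q) {s : ℕ}
    (hs : s = 0 ∨ 2 * orderOf (q : ZMod r) * (s - 1) + (r - 1) < finrank F (K1 T r)) :
    ∃ W : Submodule F V, W ≤ K1 T r ∧ TI (fun u v => B u v) W ∧ Inv T W ∧
      finrank F W = orderOf (q : ZMod r) * s := by
  have hinj := h.inj hr.ne_zero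
  have hss : SS T := ss_of_pow hrF one_ne_zero (by rw [h.pow, one_smul])
  exact cap h.fm h.isoF hinj hss (e := r - 1) (d := orderOf (q : ZMod r)) (U₀ := K1 T r)
    (fun U hU _ hUi hpos => ti_large' h h2 hq hr hr2 hrF hrq hU hUi hpos) s (K1 T r) le_rfl (nd_K1 h hrF)
    (inv_ker T _) hs

end Cfsg.Agent.Lib.ElusT.TI
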