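import Cfsg.Agent.Lib.ElusT.QType
import Cfsg.Agent.Lib.ElusT.TI
import Cfsg.Agent.Lib.ElusT.Count
import Cfsg.Agent.Lib.ElusF.SpNd
import Cfsg.Agent.Lib.ElusF.HzTwo

/-!
# Isometries of prime order of quadratic forms, in all characteristics
-/

set_option autoImplicit false
set_option linter.unusedSectionVars false
set_option linter.style.haveILetI false
set_option linter.unusedVariables false
set_option linter.unusedSimpArgs false

open Polynomial Module QuadraticMap

universe u v w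

namespace Cfsg.Agent.Lib.ElusT.QK1

open Cfsg Cfsg.Agent.Lib.ElusL.Basic Cfsg.Agent.Lib.ElusL.Flag Cfsg.Agent.Lib.ElusL.Cyc
  Cfsg.Agent.Lib.ElusL.Pos Cfsg.Agent.Lib.ElusF.Form Cfsg.Agent.Lib.ElusF.Step
  Cfsg.Agent.Lib.ElusF.Split Cfsg.Agent.Lib.ElusF.SpNeg Cfsg.Agent.Lib.ElusQ.Oz Cfsg.Agent.Lib.ElusQ.Pos
  Cfsg.Agent.Lib.ElusQ.Syl Cfsg.Agent.Lib.ElusQ.Count Cfsg.Agent.Lib.ElusT.TI Cfsg.Agent.Lib.ElusT.QType
  Cfsg.Agent.Lib.ElusT.Count

variable {F : Type u} [Field F] [Fintype F] {q r : ℕ} {V : Type v} [AddCommGroup V] [Module F V]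
  [FiniteDimensional F V] {Q : QuadraticForm F V} {T : End F V}

/-- Subspaces with a Lagrangian totally singular subspace. -/
def HyS (Q : QuadraticForm F V) (U : Submodule F V) : Prop :=
  ∃ X : Submodule F V, X ≤ U ∧ (∀ x ∈ X, Q x = 0) ∧ 2 * finrank F X = finrank F U

theorem hyS_iff (Q : QuadraticForm F V) (U : Submodule F V) : HyS Q U ↔ HyQ (Q.comp U.subtype) := by
  constructor
  · rintro ⟨X, hXU, hX, hd⟩
    refine ⟨X.comap U.subtype, fun u hu => hX _ hu, ?_⟩
    rw [LinearEquiv.finrank_eq (Submodule.comapSubtypeEquivOfLe hXU), hd]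
  · rintro ⟨X, hX, hd⟩
    refine ⟨X.map U.subtype, Submodule.map_subtype_le U X, ?_, ?_⟩
    · rintro _ ⟨x, hx, rfl⟩
      exact hX x hx
    · rw [Submodule.finrank_map_subtype_eq, hd]

theorem hyS_top (Q : QuadraticForm F V) : HyS Q ⊤ ↔ HyQ Q := by
  constructor
  · rintro ⟨X, -, hX, hd⟩
    exact ⟨X, hX, by rw [hd, finrank_top]⟩
  · rintro ⟨X, hX, hd⟩
    exact ⟨X, le_top, hX, by rw [hd, finrank_top]⟩

theorem nd_comp {U : Submodule F V} (hU : Nd (fun u v => polarBilin Q u v) U) :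
    (polarBilin (Q.comp U.subtype)).Nondegenerate := by
  apply Cfsg.Agent.Lib.Classical.QuadHyp.nondeg_of_sep
  intro x hx
  apply Subtype.ext
  apply hU x x.2
  intro v hv
  exact hx ⟨v, hv⟩

theorem disjoint_of_orth {X Y : Submodule F V} (hX : Nd (fun u v => polarBilin Q u v) X)
    (horth : ∀ x ∈ X, ∀ y ∈ Y, polarBilin Q x y = 0) : Disjoint X Y := by
  rw [Submodule.disjoint_def]
  intro u hu hu'
  exact hX u hu (fun v hv => by
    have h1 : polar (⇑Q) v u = 0 := horth v hv u hu'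
    change polar (⇑Q) u v = 0
    rw [polar_comm]
    exact h1)

/-- The type of an orthogonal sum. -/
theorem hyS_sup (hq : Fintype.card F = q) {X Y : Submodule F V} (hX : Nd (fun u v => polarBilin Q u v) X)
    (hY : Nd (fun u v => polarBilin Q u v) Y) (horth : ∀ x ∈ X, ∀ y ∈ Y, polarBilin Q x y = 0) {a b : ℕ}
    (ha : finrank F X = 2 * a) (hb : finrank F Y = 2 * b) :
    HyS Q (X ⊔ Y) ↔ (HyS Q X ↔ HyS Q Y) := by
  have hd := disjoint_of_orth hX horth
  let φ : (X × Y) →ₗ[F] ↥(X ⊔ Y) :=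
    { toFun := fun p => ⟨(p.1 : V) + (p.2 : V), Submodule.add_mem_sup p.1.2 p.2.2⟩
      map_add' := fun p p' => by
        apply Subtype.ext
        simp only [Prod.fst_add, Prod.snd_add, Submodule.coe_add]
        abel
      map_smul' := fun c p => by
        apply Subtype.ext
        simp only [Prod.smul_fst, Prod.smul_snd, Submodule.coe_smul, RingHom.id_apply, smul_add] }
  have hφ : Function.Bijective φ := by
    constructor
    · rw [← LinearMap.ker_eq_bot, LinearMap.ker_eq_bot']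
      rintro ⟨x, y⟩ h
      have h1 : (x : V) + (y : V) = 0 := congrArg Subtype.val h
      have h2 : (x : V) ∈ Y := by
        rw [eq_neg_of_add_eq_zero_left h1]
        exact Y.neg_mem y.2
      have h3 : (x : V) = 0 := Submodule.disjoint_def.mp hd _ x.2 h2
      have h4 : (y : V) = 0 := by
        rw [h3, zero_add] at h1
        exact h1
      exact Prod.ext (Subtype.ext h3) (Subtype.ext h4)
    · rintro ⟨v, hv⟩
      obtain ⟨a, ha, c, hc, rfl⟩ := Submodule.mem_sup.mp hv
      exact ⟨(⟨a, ha⟩, ⟨c, hc⟩), rfl⟩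
  let e := LinearEquiv.ofBijective φ hφ
  have he : ∀ p, (Q.comp (X ⊔ Y).subtype) (e p) = ((Q.comp X.subtype).prod (Q.comp Y.subtype)) p := by
    intro p
    change Q ((p.1 : V) + (p.2 : V)) = Q (p.1 : V) + Q (p.2 : V)
    exact Q_add_of_polar (horth _ p.1.2 _ p.2.2)
  rw [hyS_iff, hyS_iff, hyS_iff, ← hyQ_of_iso e he]
  exact hyQ_prod hq (nd_comp hX) (nd_comp hY) ha hb


/-- Totally singular subspaces of the expected dimension. -/
theorem exists_ts_sub {U : Submodule F V} (hU : Nd (fun u v => polarBilin Q u v) U) {a : ℕ}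
    (hd : finrank F U = 2 * a) {t : ℕ} (h : (HyS Q U ∧ t ≤ a) ∨ t + 1 ≤ a) :
    ∃ W : Submodule F V, W ≤ U ∧ (∀ w ∈ W, Q w = 0) ∧ finrank F W = t := by
  classical
  rcases h with ⟨⟨X, hXU, hX, hXd⟩, ht⟩ | ht
  · obtain ⟨W, hW, hWd⟩ := Cfsg.Agent.Lib.ElusF.HzTwo.exists_le_dim X (t := t) (by omega)
    exact ⟨W, hW.trans hXU, fun w hw => hX w (hW hw), hWd⟩
  · obtain ⟨k, e, f, W', hf, -, hW2, hW3, hW4⟩ := Cfsg.Agent.Lib.Orth.Std.exists_std _ U (Q.comp U.subtype)
      (nd_comp hU) rfl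
    have hle := Cfsg.Agent.Lib.Orth.Std.finrank_aniso_le (nd_comp hU) hW2 hW4
    obtain ⟨Y, hY, hYd⟩ := Cfsg.Agent.Lib.Classical.OmegaDesc.lagr_of_hypFam hf
    obtain ⟨W, hW, hWd⟩ := Cfsg.Agent.Lib.ElusF.HzTwo.exists_le_dim (Y.map U.subtype) (t := t) (by
      rw [Submodule.finrank_map_subtype_eq, hYd]
      omega)
    refine ⟨W, hW.trans (Submodule.map_subtype_le U Y), fun w hw => ?_, hWd⟩
    obtain ⟨y, hy, rfl⟩ := hW hw
    exact hY y hy

/-- An isometry of a quadratic form whose `r`-th power is trivial. -/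
structure Mz (Q : QuadraticForm F V) (T : End F V) (r : ℕ) : Prop where
  oz : Oz (polarBilin Q) T r
  iso : ∀ v, Q (T v) = Q v

theorem polar_alt (h2 : (2 : F) = 0) (u : V) : polarBilin Q u u = 0 := by
  rw [polar_self', h2, zero_mul]

theorem fm_neg (h : Oz (polarBilin Q) T r) (h2 : (2 : F) = 0) :
    Fm (RingHom.id F) (-1) (fun u v => polarBilin Q u v) := by
  have h1 : (-1 : F) = 1 := by linear_combination -h2
  rw [h1]
  exact h.fm

/-- For odd degree, minimal invariant subspaces of the fixed-point-free part are isotropic. -/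
theorem ti_odd_q (h : Oz (polarBilin Q) T r) (hq : Fintype.card F = q) (hr : r.Prime) (hrO : Odd r)
    (hrF : (r : F) ≠ 0) (hrq : ¬ r ∣ q) (hi : Odd (orderOf (q : ZMod r))) {U : Submodule F V}
    (hU₁ : U ≤ K1 T r) (hUi : Inv T U) (hpos : 0 < finrank F U) :
    ∃ W : Submodule F V, W ≤ U ∧ TI (fun u v => polarBilin Q u v) W ∧ Inv T W ∧
      finrank F W = orderOf (q : ZMod r) := by
  by_cases h2 : (2 : F) = 0
  · exact Cfsg.Agent.Lib.ElusF.SpPos.ti_odd (fm_neg h h2) (polar_alt h2) h.isoF h.pow hq hr hrF hrq hi hU₁ hUi hpos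
  · exact Cfsg.Agent.Lib.ElusQ.Oz.ti_odd h h2 hq hr hrO hrF hrq hi hU₁ hUi hpos

/-- If the dimension is large there are isotropic minimal invariant subspaces. -/
theorem ti_large_q (h : Oz (polarBilin Q) T r) (hq : Fintype.card F = q) (hr : r.Prime) (hr2 : r ≠ 2)
    (hrF : (r : F) ≠ 0) (hrq : ¬ r ∣ q) {U : Submodule F V} (hU₁ : U ≤ K1 T r) (hUi : Inv T U)
    (hlarge : r - 1 < finrank F U) :
    ∃ W : Submodule F V, W ≤ U ∧ TI (fun u v => polarBilin Q u v) W ∧ Inv T W ∧
      finrank F W = orderOf (q : ZMod r) := by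
  by_cases h2 : (2 : F) = 0
  · exact Cfsg.Agent.Lib.ElusF.SpPos.ti_large (fm_neg h h2) (polar_alt h2) h.isoF h.pow hq hr hrF hrq hU₁ hUi hlarge
  · exact ti_large' h h2 hq hr hr2 hrF hrq hU₁ hUi hlarge

/-- Nondegenerate invariant subspaces of the fixed-point-free part have even dimension. -/
theorem two_dvd_q (h : Oz (polarBilin Q) T r) (hrO : Odd r) (hrF : (r : F) ≠ 0) {U : Submodule F V}
    (hU : Nd (fun u v => polarBilin Q u v) U) (hUi : Inv T U) (hU₁ : U ≤ K1 T r) : 2 ∣ finrank F U := by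
  by_cases h2 : (2 : F) = 0
  · exact (Cfsg.Agent.Lib.ElusF.SpPos.even_of_nd (fm_neg h h2) (polar_alt h2) _ U rfl hU).two_dvd
  · exact Cfsg.Agent.Lib.ElusQ.Oz.two_dvd h h2 hrO hrF hU hUi hU₁

theorem c_dvd_q (h : Oz (polarBilin Q) T r) (hq : Fintype.card F = q) (hr : r.Prime) (hrO : Odd r)
    (hrF : (r : F) ≠ 0) (hrq : ¬ r ∣ q) {U : Submodule F V} (hU : Nd (fun u v => polarBilin Q u v) U)
    (hUi : Inv T U) (hU₁ : U ≤ K1 T r) : cOf (orderOf (q : ZMod r)) ∣ finrank F U := by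
  have h3 := i_dvd hq hr hrF hrq hUi hU₁
  unfold cOf
  split_ifs with he
  · exact h3
  · apply Nat.Coprime.mul_dvd_of_dvd_of_dvd _ (two_dvd_q h hrO hrF hU hUi hU₁) h3
    rw [Nat.not_even_iff_odd] at he
    exact (Nat.coprime_two_left).mpr he

/-- Invariant isotropic subspaces of the fixed-point-free part, degree odd. -/
theorem K1_odd_q (h : Oz (polarBilin Q) T r) (hq : Fintype.card F = q) (hr : r.Prime) (hrO : Odd r)
    (hrF : (r : F) ≠ 0) (hrq : ¬ r ∣ q) (hi : Odd (orderOf (q : ZMod r))) {U : Submodule F V}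
    (hU₁ : U ≤ K1 T r) (hU : Nd (fun u v => polarBilin Q u v) U) (hUi : Inv T U) {s : ℕ}
    (hs : 2 * (orderOf (q : ZMod r) * s) ≤ finrank F U) :
    ∃ W : Submodule F V, W ≤ U ∧ TI (fun u v => polarBilin Q u v) W ∧ Inv T W ∧
      finrank F W = orderOf (q : ZMod r) * s := by
  have hipos : 0 < orderOf (q : ZMod r) := hi.pos
  have hinj := h.inj hr.ne_zero
  have hss : SS T := ss_of_pow hrF one_ne_zero (by rw [h.pow, one_smul])
  exact cap h.fm h.isoF hinj hss (e := 0) (d := orderOf (q : ZMod r)) (U₀ := U)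
    (fun U' hU' _ hUi' hpos => ti_odd_q h hq hr hrO hrF hrq hi (hU'.trans hU₁) hUi' hpos) s U le_rfl hU
    hUi (by
      rcases Nat.eq_zero_or_pos s with h0 | h0
      · exact Or.inl h0
      · right
        obtain ⟨s', rfl⟩ : ∃ s', s = s' + 1 := ⟨s - 1, by omega⟩
        simp only [Nat.add_sub_cancel, add_zero]
        have h3 : orderOf (q : ZMod r) * s' < orderOf (q : ZMod r) * (s' + 1) :=
          Nat.mul_lt_mul_of_pos_left (by omega) hipos
        have h4 : 2 * orderOf (q : ZMod r) * s' = 2 * (orderOf (q : ZMod r) * s') := by ring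
        omega)

/-- Invariant isotropic subspaces of the fixed-point-free part, large dimension. -/
theorem K1_large_q (h : Oz (polarBilin Q) T r) (hq : Fintype.card F = q) (hr : r.Prime) (hr2 : r ≠ 2)
    (hrF : (r : F) ≠ 0) (hrq : ¬ r ∣ q) {s : ℕ}
    (hs : s = 0 ∨ 2 * orderOf (q : ZMod r) * (s - 1) + (r - 1) < finrank F (K1 T r)) :
    ∃ W : Submodule F V, W ≤ K1 T r ∧ TI (fun u v => polarBilin Q u v) W ∧ Inv T W ∧
      finrank F W = orderOf (q : ZMod r) * s := by
  have hinj := h.inj hr.ne_zero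
  have hss : SS T := ss_of_pow hrF one_ne_zero (by rw [h.pow, one_smul])
  exact cap h.fm h.isoF hinj hss (e := r - 1) (d := orderOf (q : ZMod r)) (U₀ := K1 T r)
    (fun U hU _ hUi hpos => ti_large_q h hq hr hr2 hrF hrq hU hUi hpos) s (K1 T r) le_rfl (nd_K1 h hrF)
    (inv_ker T _) hs

/-- An invariant totally isotropic subspace of the fixed-point-free part is totally singular. -/
theorem ts_of_ti (h : Mz Q T r) (hrF : (r : F) ≠ 0) {W : Submodule F V} (hW₁ : W ≤ K1 T r)
    (hTI : TI (fun u v => polarBilin Q u v) W) (hInv : Inv T W) : ∀ w ∈ W, Q w = 0 := by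
  intro w hw
  have hpow : ∀ j : ℕ, (T ^ j) w ∈ W ∧ Q ((T ^ j) w) = Q w := by
    intro j
    induction j with
    | zero => exact ⟨hw, rfl⟩
    | succ j ih =>
      rw [pow_succ', Module.End.mul_apply]
      exact ⟨hInv _ ih.1, by rw [h.iso, ih.2]⟩
  have hsum : ∀ n : ℕ, (∑ j ∈ Finset.range n, (T ^ j) w) ∈ W ∧
      Q (∑ j ∈ Finset.range n, (T ^ j) w) = (n : F) * Q w := by
    intro n
    induction n with
    | zero => simp
    | succ n ih =>
      rw [Finset.sum_range_succ]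
      refine ⟨W.add_mem ih.1 (hpow n).1, ?_⟩
      rw [Q_add_of_polar (hTI _ ih.1 _ (hpow n).1), ih.2, (hpow n).2]
      push_cast
      ring
  have h0 : (∑ j ∈ Finset.range r, (T ^ j) w) = 0 := by
    have h1 : Polynomial.aeval T (Phi F r) w = 0 := LinearMap.mem_ker.mp (hW₁ hw)
    rw [← h1, Phi]
    simp [map_sum, LinearMap.sum_apply]
  have h1 := (hsum r).2
  rw [h0, map_zero] at h1
  exact (mul_eq_zero.mp h1.symm).resolve_left hrF

/-- The type of a fixed-point-free part, degree odd. -/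
theorem hyS_odd (h : Mz Q T r) (hq : Fintype.card F = q) (hr : r.Prime) (hrO : Odd r)
    (hrF : (r : F) ≠ 0) (hrq : ¬ r ∣ q) (hi : Odd (orderOf (q : ZMod r))) {U : Submodule F V}
    (hU₁ : U ≤ K1 T r) (hU : Nd (fun u v => polarBilin Q u v) U) (hUi : Inv T U) : HyS Q U := by
  have hd := c_dvd_q h.oz hq hr hrO hrF hrq hU hUi hU₁
  rw [show cOf (orderOf (q : ZMod r)) = 2 * orderOf (q : ZMod r) by
    unfold cOf
    rw [if_neg (Nat.not_even_iff_odd.mpr hi)]] at hd
  obtain ⟨s, hs⟩ := hd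
  obtain ⟨W, h1, h3, h4, h5⟩ := K1_odd_q h.oz hq hr hrO hrF hrq hi hU₁ hU hUi (s := s) (by
    rw [hs]
    apply le_of_eq
    ring)
  exact ⟨W, h1, ts_of_ti h hrF (h1.trans hU₁) h3 h4, by
    rw [h5, hs]
    ring⟩

/-- The number of singular vectors modulo `r`. -/
theorem card_sing_modEq_q (h : Mz Q T r) (hr : r.Prime) (hrF : (r : F) ≠ 0) {U : Submodule F V}
    (hU₁ : U ≤ K1 T r) (hUi : Inv T U) :
    Nat.card {v : U // (Q.comp U.subtype) v = 0} ≡ 1 [MOD r] := by
  classical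
  haveI : Fact r.Prime := ⟨hr⟩
  haveI : Finite V := Module.finite_of_finite F
  haveI : Fintype {v : U // (Q.comp U.subtype) v = 0} := Fintype.ofFinite _
  let f : {v : U // (Q.comp U.subtype) v = 0} → {v : U // (Q.comp U.subtype) v = 0} := fun v =>
    ⟨T.restrict hUi v.1, by
      have := v.2
      change Q (T (v.1 : V)) = 0
      rw [h.iso]
      exact this⟩
  have hf : ∀ (k : ℕ) (v : {v : U // (Q.comp U.subtype) v = 0}), (((f^[k] v).1 : U) : V) = (T ^ k) ((v.1 : U) : V) := by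
    intro k
    induction k with
    | zero => intro v; rfl
    | succ k ih =>
      intro v
      rw [Function.iterate_succ_apply, ih, pow_succ, Module.End.mul_apply]
      rfl
  refine card_modEq_one f ?_ ⟨0, by simp⟩ ?_
  · funext v
    apply Subtype.ext
    apply Subtype.ext
    rw [hf, h.oz.pow]
    rfl
  · intro x
    constructor
    · intro hx
      apply Subtype.ext
      apply Subtype.ext
      have h3 : T ((x.1 : U) : V) = ((x.1 : U) : V) := by
        have := congrArg (fun y : {v : U // (Q.comp U.subtype) v = 0} => ((y.1 : U) : V)) hx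
        exact this
      exact eq_zero_of_mem_of_fixed hrF (hU₁ x.1.2) h3
    · rintro rfl
      apply Subtype.ext
      simp [f]

/-- The type of a fixed-point-free part, degree even. -/
theorem hyS_even (h : Mz Q T r) (hq : Fintype.card F = q) (hr : r.Prime) (hr2 : r ≠ 2)
    (hrF : (r : F) ≠ 0) (hrq : ¬ r ∣ q) {e s : ℕ} (hi : orderOf (q : ZMod r) = 2 * e) (he : 0 < e)
    {U : Submodule F V} (hU₁ : U ≤ K1 T r) (hU : Nd (fun u v => polarBilin Q u v) U) (hUi : Inv T U)
    (hdim : finrank F U = 2 * e * s) : HyS Q U ↔ Even s := by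
  classical
  haveI : Fact r.Prime := ⟨hr⟩
  have hrq' := Cfsg.Agent.Lib.ElusF.SpModel.dvd_pow_add_one (q := q) hr hi he
  have hQe : (q : ZMod r) ^ e = -1 := by
    have h1 : ((q ^ e + 1 : ℕ) : ZMod r) = 0 := (ZMod.natCast_eq_zero_iff _ _).mpr hrq'
    push_cast at h1
    linear_combination h1
  have hQ1 : (q : ZMod r) - 1 ≠ 0 := by
    intro h1
    have h3 := orderOf_eq_one_iff.mpr (sub_eq_zero.mp h1)
    omega
  have h21 : (1 : ZMod r) ≠ -1 := by
    intro h1
    have h3 : ((2 : ℕ) : ZMod r) = 0 := by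
      push_cast
      linear_combination h1
    rw [ZMod.natCast_eq_zero_iff] at h3
    exact hr2 ((Nat.prime_dvd_prime_iff_eq hr Nat.prime_two).mp h3)
  have hdim' : finrank F U = 2 * (e * s) := by
    rw [hdim]
    ring
  have hc := card_sing_eps hq (nd_comp hU) hdim'
  have hm := (ZMod.natCast_eq_natCast_iff _ _ _).mpr (card_sing_modEq_q h hr hrF hU₁ hUi)
  push_cast at hm
  have hc' := congrArg (Int.cast : ℤ → ZMod r) hc
  push_cast at hc'
  rw [hm] at hc'
  have hy : (q : ZMod r) ^ (e * s) = (-1) ^ s := by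
    rw [pow_mul, hQe]
  have hy2 : (q : ZMod r) ^ (2 * (e * s)) = 1 := by
    rw [mul_comm 2, pow_mul, hy, ← pow_mul, mul_comm s 2, pow_mul]
    simp
  rw [hy, hy2] at hc'
  rw [hyS_iff, hy_iff_eps]
  have hkey : ((eps (Q.comp U.subtype) : ℤ) : ZMod r) * (-1) ^ s = 1 := by
    have h5 : ((q : ZMod r) - 1) * (((eps (Q.comp U.subtype) : ℤ) : ZMod r) * (-1) ^ s - 1) = 0 := by
      linear_combination -hc'
    have h6 := (mul_eq_zero.mp h5).resolve_left hQ1
    linear_combination h6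
  have heps : eps (Q.comp U.subtype) = 1 ∨ eps (Q.comp U.subtype) = -1 := by
    by_cases hh : HyQ (Q.comp U.subtype)
    · exact Or.inl (eps_of_hy hh)
    · exact Or.inr (eps_of_not hh)
  rcases Nat.even_or_odd s with hs | hs
  · rw [hs.neg_one_pow] at hkey
    simp only [hs, iff_true]
    rcases heps with h7 | h7
    · exact h7
    · rw [h7] at hkey
      exfalso
      apply h21
      push_cast at hkey
      linear_combination -hkey
  · rw [hs.neg_one_pow] at hkey
    have hns : ¬ Even s := Nat.not_even_iff_odd.mpr hs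
    simp only [hns, iff_false]
    rcases heps with h7 | h7
    · rw [h7] at hkey
      exfalso
      apply h21
      push_cast at hkey
      linear_combination -hkey
    · rw [h7]
      omega

/-- The two parts span. -/
theorem K_sup (h : Oz (polarBilin Q) T r) (hrF : (r : F) ≠ 0) : K0 T ⊔ K1 T r = ⊤ := by
  have := (split01 hrF h.pow (U := ⊤) (fun v _ => trivial)).1
  rwa [top_inf_eq, top_inf_eq] at this

/-- The type of the space and the types of the two parts. -/
theorem hyQ_K (h : Oz (polarBilin Q) T r) (hq : Fintype.card F = q) (hrF : (r : F) ≠ 0) {a b : ℕ}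
    (ha : finrank F (K0 T) = 2 * a) (hb : finrank F (K1 T r) = 2 * b) :
    HyQ Q ↔ (HyS Q (K0 T) ↔ HyS Q (K1 T r)) := by
  rw [← hyS_top, ← K_sup h hrF]
  exact hyS_sup hq (nd_K0 h hrF) (nd_K1 h hrF) (orth_K h hrF) ha hb

/-- Combining totally singular subspaces of the two parts. -/
theorem combine_q (h : Oz (polarBilin Q) T r) (hrF : (r : F) ≠ 0) {W₀ W₁ : Submodule F V}
    (h0 : W₀ ≤ K0 T) (h1 : W₁ ≤ K1 T r) (ht0 : ∀ w ∈ W₀, Q w = 0) (ht1 : ∀ w ∈ W₁, Q w = 0)
    (hi1 : Inv T W₁) :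
    (∀ w ∈ W₀ ⊔ W₁, Q w = 0) ∧ Inv T (W₀ ⊔ W₁) ∧
      finrank F (W₀ ⊔ W₁ : Submodule F V) = finrank F W₀ + finrank F W₁ := by
  refine ⟨?_, inv_sup (inv_of_le_K0 h0) hi1, finrank_sup_of_disjoint ?_⟩
  · intro w hw
    obtain ⟨a, ha, b, hb, rfl⟩ := Submodule.mem_sup.mp hw
    rw [Q_add_of_polar (orth_K h hrF a (h0 ha) b (h1 hb)), ht0 a ha, ht1 b hb, add_zero]
  · rw [Submodule.disjoint_def]
    intro v hv hv'
    exact eq_zero_of_mem_of_fixed hrF (h1 hv') (mem_fix.mp (h0 hv))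

/-- Totally singular subspaces are totally isotropic. -/
theorem ti_of_ts {W : Submodule F V} (hW : ∀ w ∈ W, Q w = 0) : TI (fun u v => polarBilin Q u v) W := by
  intro u hu v hv
  change polar (⇑Q) u v = 0
  rw [polar, hW _ (W.add_mem hu hv), hW u hu, hW v hv]
  simp

end Cfsg.Agent.Lib.ElusT.QK1
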