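import Cfsg.Agent.Lib.ElusT.QK1
import Cfsg.Agent.Lib.ElusQ.Model
import Cfsg.Agent.Lib.QuadFn.PlusForm
import Cfsg.Agent.Lib.ElusQ.EvenV

/-!
# Models of isometries of prime order of quadratic forms, in all characteristics
-/

set_option autoImplicit false
set_option linter.unusedSectionVars false
set_option linter.style.haveILetI false
set_option linter.unusedVariables false
set_option linter.unusedSimpArgs false

open Polynomial Module QuadraticMap

universe u v w

namespace Cfsg.Agent.Lib.ElusT.QModel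

open Cfsg Cfsg.Agent.Lib.ElusL.Basic Cfsg.Agent.Lib.ElusL.Cyc
  Cfsg.Agent.Lib.ElusF.Form Cfsg.Agent.Lib.ElusF.SpNeg Cfsg.Agent.Lib.ElusF.SpModel
  Cfsg.Agent.Lib.SylowLarge.SpForm Cfsg.Agent.Lib.SpSpec.FormAlg
  Cfsg.Agent.Lib.ElusQ.Oz Cfsg.Agent.Lib.ElusQ.Pos Cfsg.Agent.Lib.ElusQ.Model Cfsg.Agent.Lib.ElusQ.Syl
  Cfsg.Agent.Lib.ElusT.QType Cfsg.Agent.Lib.ElusT.QK1 Cfsg.Agent.Lib.Orth.Forms

variable {F : Type u} [Field F] {q r : ℕ}

section Alg

variable {R : Type*} [CommRing R] [Algebra F R]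

/-- The quadratic form of an algebra with involution. -/
noncomputable def algQ (σ : R →ₐ[F] R) (τ : R →ₗ[F] F) (c : R) : QuadraticForm F R :=
  LinearMap.BilinMap.toQuadraticMap ((form σ τ).comp (Algebra.lmul F R c) LinearMap.id)

theorem algQ_apply (σ : R →ₐ[F] R) (τ : R →ₗ[F] F) (c f : R) : algQ σ τ c f = τ (c * f * σ f) := rfl

theorem polar_algQ {σ : R →ₐ[F] R} {τ : R →ₗ[F] F} {c : R} (h : IsFormSym σ τ) (hc : c + σ c = 1) (f g : R) :
    polar (⇑(algQ σ τ c)) f g = τ (f * σ g) := by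
  have h1 : polar (⇑(algQ σ τ c)) f g = τ (c * f * σ g) + τ (c * g * σ f) :=
    LinearMap.BilinMap.polar_toQuadraticMap f g
  have h2 : σ (c * g * σ f) = σ c * σ g * f := by
    rw [map_mul, map_mul, h.invol]
  rw [h1, ← h.sym (c * g * σ f), h2, ← map_add]
  congr 1
  calc c * f * σ g + σ c * σ g * f = (c + σ c) * (f * σ g) := by ring
    _ = f * σ g := by rw [hc, one_mul]

theorem polarBilin_algQ {σ : R →ₐ[F] R} {τ : R →ₗ[F] F} {c : R} (h : IsFormSym σ τ) (hc : c + σ c = 1) :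
    polarBilin (algQ σ τ c) = form σ τ := by
  ext f g
  exact polar_algQ h hc f g

theorem Mz_lmul [Fintype F] [FiniteDimensional F R] {σ : R →ₐ[F] R} {τ : R →ₗ[F] F} {c : R} (h : IsFormSym σ τ)
    (hc : c + σ c = 1) {x : R} (hx : x * σ x = 1) (hr : x ^ r = 1) :
    Mz (algQ σ τ c) (Algebra.lmul F R x) r := by
  refine ⟨?_, fun v => ?_⟩
  · rw [polarBilin_algQ h hc]
    exact Oz.lmul h hx hr
  · change τ (c * (x * v) * σ (x * v)) = τ (c * v * σ v)
    congr 1
    rw [map_mul]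
    calc c * (x * v) * (σ x * σ v) = (x * σ x) * (c * v * σ v) := by ring
      _ = c * v * σ v := by rw [hx, one_mul]

end Alg

section Field

theorem aux_c {K : Type*} [Field K] {y : K} (hy0 : y ≠ 0) (hy1 : y + 1 ≠ 0) (h3 : y⁻¹ + 1 ≠ 0) :
    y * (y + 1)⁻¹ + y⁻¹ * (y⁻¹ + 1)⁻¹ = 1 := by
  have h5 : y⁻¹ + 1 = (y + 1) * y⁻¹ := by
    rw [add_mul, mul_inv_cancel₀ hy0, one_mul, add_comm]
  rw [h5, mul_inv, inv_inv]
  have h6 : y⁻¹ * ((y + 1)⁻¹ * y) = (y + 1)⁻¹ := by
    rw [mul_comm (y + 1)⁻¹, ← mul_assoc, inv_mul_cancel₀ hy0, one_mul]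
  rw [h6]
  calc y * (y + 1)⁻¹ + (y + 1)⁻¹ = (y + 1) * (y + 1)⁻¹ := by ring
    _ = 1 := mul_inv_cancel₀ hy1

variable [Fintype F]

open scoped _root_.Classical in
/-- One field of even degree. -/
theorem exists_line_q (hq : Fintype.card F = q) {g : F[X]} (hg : Irreducible g) (hgr : g ∣ X ^ r - 1) {e : ℕ}
    (he : e ≠ 0) (hdeg : g.natDegree = 2 * e) (hrq : r ∣ q ^ e + 1) (hrO : Odd r) :
    ∃ (V : Type u) (_ : AddCommGroup V) (_ : Module F V) (_ : FiniteDimensional F V)
      (Q : QuadraticForm F V) (T : End F V), Mz Q T r ∧ finrank F V = 2 * e ∧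
      (∀ P : F[X], Dk T P = if g ∣ P then 2 * e else 0) ∧ ∀ z : F, T ≠ z • 1 := by
  classical
  subst hq
  haveI : Fact (Irreducible g) := ⟨hg⟩
  let K := AdjoinRoot g
  have hpb := AdjoinRoot.powerBasis hg.ne_zero
  haveI : FiniteDimensional F K := (AdjoinRoot.powerBasis hg.ne_zero).finite
  haveI : Finite K := Module.finite_of_finite F
  have hfin : finrank F K = 2 * e := by
    rw [(AdjoinRoot.powerBasis hg.ne_zero).finrank, AdjoinRoot.powerBasis_dim, hdeg]
  have hcard : Nat.card K = Fintype.card F ^ (2 * e) := by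
    rw [Module.natCard_eq_pow_finrank (K := F), hfin, Nat.card_eq_fintype_card]
  obtain ⟨σ, τ, hf, hσ⟩ := exists_form_field_sym (F := F) K e he hcard
  let ω : K := AdjoinRoot.root g
  have hω : ω ^ r = 1 := by
    have h1 : AdjoinRoot.mk g (X ^ r - 1) = 0 := (AdjoinRoot.mk_eq_zero).mpr hgr
    rw [map_sub, map_pow, AdjoinRoot.mk_X, map_one, sub_eq_zero] at h1
    exact h1
  have hx : ω * σ ω = 1 := by
    rw [hσ]
    obtain ⟨c, hc⟩ := hrq
    have : ω * ω ^ (Fintype.card F ^ e) = ω ^ (Fintype.card F ^ e + 1) := by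
      rw [pow_succ, mul_comm]
    rw [this, hc, pow_mul, hω, one_pow]
  have hker : ∀ P : F[X], Polynomial.aeval ω P = 0 ↔ g ∣ P := by
    intro P
    rw [← AdjoinRoot.mk_eq_zero]
    have : Polynomial.aeval ω P = AdjoinRoot.mk g P := AdjoinRoot.aeval_eq P
    rw [this]
  have hω1 : ω ≠ 1 := by
    intro h
    have h3 : g ∣ X - C 1 := by
      rw [← hker, map_sub, aeval_X, aeval_C, sub_eq_zero, h, map_one]
    have h4 := Polynomial.natDegree_le_of_dvd h3 (X_sub_C_ne_zero 1)
    rw [natDegree_X_sub_C, hdeg] at h4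
    omega
  have hω0 : ω ≠ 0 := by
    intro h
    rw [h] at hx
    simp at hx
  set y : K := ω * ω with hy
  have hy0 : y ≠ 0 := mul_ne_zero hω0 hω0
  have hy1 : y + 1 ≠ 0 := by
    intro h
    have h2 : y = -1 := by linear_combination h
    obtain ⟨a, ha⟩ := hrO
    have h3 : y ^ r = 1 := by
      rw [hy, mul_pow, hω, one_mul]
    rw [h2, ha, Odd.neg_one_pow ⟨a, rfl⟩] at h3
    have h4 : y = 1 := h2.trans h3
    apply hω1
    have h5 : ω ^ (2 * a + 1) = y ^ a * ω := by
      rw [hy, pow_succ, pow_mul, _root_.sq]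
    rw [ha, h5, h4, one_pow, one_mul] at hω
    exact hω
  have hσy : σ y = y⁻¹ := by
    have h3 : y * σ y = 1 := by
      rw [hy, map_mul]
      calc ω * ω * (σ ω * σ ω) = (ω * σ ω) * (ω * σ ω) := by ring
        _ = 1 := by rw [hx, one_mul]
    exact eq_inv_of_mul_eq_one_right h3
  have hc : y * (y + 1)⁻¹ + σ (y * (y + 1)⁻¹) = 1 := by
    have h3 : y⁻¹ + 1 ≠ 0 := by
      intro h
      apply hy1
      have : (y⁻¹ + 1) * y = 1 + y := by
        rw [add_mul, inv_mul_cancel₀ hy0, one_mul]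
      rw [add_comm, ← this, h, zero_mul]
    rw [map_mul, map_inv₀, map_add, map_one, hσy]
    exact aux_c hy0 hy1 h3
  refine ⟨K, inferInstance, inferInstance, inferInstance, algQ σ τ (y * (y + 1)⁻¹), Algebra.lmul F K ω,
    Mz_lmul hf hc hx hω, hfin, ?_, ?_⟩
  · intro P
    rw [Dk_lmul, hfin]
    by_cases h : g ∣ P
    · rw [if_pos ((hker P).mpr h), if_pos h]
    · rw [if_neg (fun h' => h ((hker P).mp h')), if_neg h]
  · intro z hz
    have h1 := congrArg (fun S : End F K => S 1) hz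
    have h2 : ω * 1 = z • (1 : K) := h1
    have h3 : g ∣ X - C z := by
      rw [← hker, map_sub, aeval_X, aeval_C, sub_eq_zero, ← mul_one ω, h2, Algebra.smul_def, mul_one]
    have h4 := Polynomial.natDegree_le_of_dvd h3 (X_sub_C_ne_zero z)
    rw [natDegree_X_sub_C, hdeg] at h4
    omega

/-- One double field. -/
theorem exists_double_q (hq : Fintype.card F = q) {g : F[X]} (hg : Irreducible g) (hgr : g ∣ X ^ r - 1)
    (hg1 : ¬ g ∣ X - 1) (hr : Odd r) :
    ∃ (V : Type u) (_ : AddCommGroup V) (_ : Module F V) (_ : FiniteDimensional F V)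
      (Q : QuadraticForm F V) (T : End F V), Mz Q T r ∧ finrank F V = 2 * g.natDegree ∧
      Dk T (X - 1 : F[X]) = 0 ∧ (∀ z : F, T ≠ z • 1) ∧ HyQ Q := by
  classical
  subst hq
  haveI : Fact (Irreducible g) := ⟨hg⟩
  let K := AdjoinRoot g
  haveI : FiniteDimensional F K := (AdjoinRoot.powerBasis hg.ne_zero).finite
  haveI : Finite K := Module.finite_of_finite F
  have hfin : finrank F K = g.natDegree := by
    rw [(AdjoinRoot.powerBasis hg.ne_zero).finrank, AdjoinRoot.powerBasis_dim]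
  let ω : K := AdjoinRoot.root g
  have hω : ω ^ r = 1 := by
    have h1 : AdjoinRoot.mk g (X ^ r - 1) = 0 := (AdjoinRoot.mk_eq_zero).mpr hgr
    rw [map_sub, map_pow, AdjoinRoot.mk_X, map_one, sub_eq_zero] at h1
    exact h1
  have hω0 : ω ≠ 0 := by
    intro h
    rw [h, zero_pow hr.pos.ne'] at hω
    exact zero_ne_one hω
  have hω1 : ω ≠ 1 := by
    intro h
    apply hg1
    rw [← AdjoinRoot.mk_eq_zero, map_sub, AdjoinRoot.mk_X, map_one, sub_eq_zero]
    exact h
  let R := K × K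
  let σ : R →ₐ[F] R := (AlgHom.snd F K K).prod (AlgHom.fst F K K)
  let τ : R →ₗ[F] F := (Algebra.trace F K).coprod (Algebra.trace F K)
  have hf : IsFormSym σ τ := by
    refine ⟨fun f => rfl, fun f => ?_, ?_⟩
    · change Algebra.trace F K f.2 + Algebra.trace F K f.1 = Algebra.trace F K f.1 + Algebra.trace F K f.2
      exact add_comm _ _
    · intro f hf
      apply Prod.ext
      · apply (traceForm_nondegenerate F K).1
        intro y
        have := hf (y, 0)
        change Algebra.trace F K (f.1 * y) + Algebra.trace F K (f.2 * 0) = 0 at this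
        simpa using this
      · apply (traceForm_nondegenerate F K).1
        intro y
        have := hf (0, y)
        change Algebra.trace F K (f.1 * 0) + Algebra.trace F K (f.2 * y) = 0 at this
        simpa using this
  let x : R := (ω, ω⁻¹)
  have hx : x * σ x = 1 := by
    apply Prod.ext
    · exact mul_inv_cancel₀ hω0
    · exact inv_mul_cancel₀ hω0
  have hxr : x ^ r = 1 := by
    apply Prod.ext
    · change ω ^ r = 1
      exact hω
    · change ω⁻¹ ^ r = 1
      rw [inv_pow, hω, inv_one]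
  have hc : ((1, 0) : R) + σ ((1, 0) : R) = 1 := by
    apply Prod.ext
    · change (1 : K) + 0 = 1
      exact add_zero _
    · change (0 : K) + 1 = 1
      exact zero_add _
  refine ⟨R, inferInstance, inferInstance, inferInstance, algQ σ τ (1, 0), Algebra.lmul F R x,
    Mz_lmul hf hc hx hxr, ?_, ?_, ?_, ?_⟩
  · rw [Module.finrank_prod, hfin, two_mul]
  · unfold Dk
    have h1 : LinearMap.ker (Polynomial.aeval (Algebra.lmul F R x : End F R) (X - 1 : F[X])) = ⊥ := by
      rw [LinearMap.ker_eq_bot']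
      intro f hf'
      rw [aeval_lmul] at hf'
      have h2 : Polynomial.aeval x (X - 1 : F[X]) = x - 1 := by simp
      rw [h2] at hf'
      have h3 : (ω - 1) * f.1 = 0 := congrArg Prod.fst hf'
      have h4 : (ω⁻¹ - 1) * f.2 = 0 := congrArg Prod.snd hf'
      have h5 : ω⁻¹ ≠ 1 := by
        intro h
        exact hω1 (inv_eq_one.mp h)
      apply Prod.ext
      · exact (mul_eq_zero.mp h3).resolve_left (sub_ne_zero.mpr hω1)
      · exact (mul_eq_zero.mp h4).resolve_left (sub_ne_zero.mpr h5)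
    rw [h1]
    exact finrank_bot F R
  · intro z hz
    have h1 := congrArg (fun S : End F R => S (1, 0)) hz
    have h2 := congrArg (fun S : End F R => S (0, 1)) hz
    have h3 : ω * 1 = z • (1 : K) := congrArg Prod.fst h1
    have h4 : ω⁻¹ * 1 = z • (1 : K) := congrArg Prod.snd h2
    rw [mul_one] at h3 h4
    have h5 : ω⁻¹ = ω := h4.trans h3.symm
    have h6 : ω * ω = 1 := by
      nth_rw 1 [← h5]
      exact inv_mul_cancel₀ hω0
    obtain ⟨a, rfl⟩ := hr
    apply hω1
    have h7 : ω ^ (2 * a + 1) = (ω * ω) ^ a * ω := by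
      rw [pow_succ, pow_mul, _root_.sq]
    rw [h7, h6, one_pow, one_mul] at hω
    exact hω
  · refine ⟨LinearMap.range (LinearMap.inl F K K), ?_, ?_⟩
    · rintro _ ⟨u, rfl⟩
      rw [algQ_apply]
      have : ((1, 0) : R) * (LinearMap.inl F K K u) * σ (LinearMap.inl F K K u) = 0 := by
        apply Prod.ext
        · change (1 : K) * u * 0 = 0
          simp
        · change (0 : K) * 0 * u = 0
          simp
      rw [this, map_zero]
    · rw [LinearMap.finrank_range_of_inj LinearMap.inl_injective, Module.finrank_prod, hfin, two_mul]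

/-- An anisotropic binary form exists. -/
theorem exists_aniso : ∃ a b : F, ∀ x y : F, x ^ 2 + a * x * y + b * y ^ 2 = 0 → x = 0 ∧ y = 0 := by
  have hni : ¬ Function.Injective (fun t : F => t ^ 2 + t) := by
    intro h
    have h1 := @h 0 (-1) (by simp)
    have h2 : (1 : F) = 0 := by linear_combination h1
    exact one_ne_zero h2
  have hns : ¬ Function.Surjective (fun t : F => t ^ 2 + t) := fun hc => hni (Finite.injective_iff_surjective.mpr hc)
  simp only [Function.Surjective, not_forall, not_exists] at hns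
  obtain ⟨ζ, hζ⟩ := hns
  refine ⟨1, -ζ, fun x y h => ?_⟩
  by_cases hy : y = 0
  · subst hy
    simpa using h
  · exfalso
    apply hζ (x / y)
    field_simp
    linear_combination h

theorem not_hyQ_minus (hq : Fintype.card F = q) {a b : F}
    (hab : ∀ x y : F, x ^ 2 + a * x * y + b * y ^ 2 = 0 → x = 0 ∧ y = 0) (k : ℕ) :
    ¬ HyQ (minusForm k F a b) := by
  intro h
  have hq' : Nat.card F = q := by rw [Nat.card_eq_fintype_card, hq]
  have h2q := two_le_q hq
  have hV : finrank F ((Fin k ⊕ Fin k) ⊕ Fin 2 → F) = 2 * (k + 1) := by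
    rw [Module.finrank_fintype_fun_eq_card]
    simp
    ring
  have h1 := card_sing_eps hq (minusForm_nondeg k hab) hV
  rw [eps_of_hy h] at h1
  have h3 := Cfsg.Agent.Lib.Classical.QuadOrders.card_zero_minus hq' hab k
  have h4 := congrArg (Nat.cast : ℕ → ℤ) h3
  change ((Nat.card {v // (minusForm k F a b) v = 0} + q ^ (k + 1) : ℕ) : ℤ) = _ at h4
  push_cast at h4
  have hQ2 : (2 : ℤ) ≤ q := by exact_mod_cast h2q
  have h5 : 2 * (((q : ℤ) - 1) * (q : ℤ) ^ (k + 1)) = 0 := by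
    linear_combination (q : ℤ) * h4 - h1
  have hne : ((q : ℤ) - 1) * (q : ℤ) ^ (k + 1) ≠ 0 :=
    mul_ne_zero (by omega) (pow_ne_zero _ (by omega))
  omega

/-- The base spaces. -/
theorem exists_base (hq : Fintype.card F = q) (a₀ : ℕ) (τ₀ : Prop) (hτ : a₀ = 0 → τ₀) :
    ∃ (V : Type u) (_ : AddCommGroup V) (_ : Module F V) (_ : FiniteDimensional F V)
      (Q : QuadraticForm F V), (polarBilin Q).Nondegenerate ∧ finrank F V = 2 * a₀ ∧ (HyQ Q ↔ τ₀) := by
  by_cases h : τ₀
  · refine ⟨Fin a₀ ⊕ Fin a₀ → F, inferInstance, inferInstance, inferInstance, plusForm a₀ F, plusForm_nondeg a₀, ?_, ?_⟩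
    · rw [Module.finrank_fintype_fun_eq_card]
      simp
      ring
    · simp only [h, iff_true]
      exact ⟨Cfsg.Agent.Lib.QuadFn.PlusForm.stdM F a₀, Cfsg.Agent.Lib.QuadFn.PlusForm.stdM_ts F a₀, by
        rw [Cfsg.Agent.Lib.QuadFn.PlusForm.stdM_finrank, Cfsg.Agent.Lib.QuadFn.PlusForm.finrank_total]⟩
  · have ha : a₀ ≠ 0 := fun h0 => h (hτ h0)
    obtain ⟨k, rfl⟩ : ∃ k, a₀ = k + 1 := ⟨a₀ - 1, by omega⟩
    obtain ⟨a, b, hab⟩ := exists_aniso (F := F)
    refine ⟨(Fin k ⊕ Fin k) ⊕ Fin 2 → F, inferInstance, inferInstance, inferInstance, minusForm k F a b,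
      minusForm_nondeg k hab, ?_, ?_⟩
    · rw [Module.finrank_fintype_fun_eq_card]
      simp
      ring
    · simp only [h, iff_false]
      exact not_hyQ_minus hq hab k

end Field

section Prod

variable {V₁ : Type v} [AddCommGroup V₁] [Module F V₁] {V₂ : Type w} [AddCommGroup V₂] [Module F V₂]

theorem polarBilin_prod (Q₁ : QuadraticForm F V₁) (Q₂ : QuadraticForm F V₂) :
    polarBilin (Q₁.prod Q₂) = sumForm (polarBilin Q₁) (polarBilin Q₂) := by
  refine LinearMap.ext₂ fun x y => ?_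
  change polar (⇑(Q₁.prod Q₂)) x y = polar (⇑Q₁) x.1 y.1 + polar (⇑Q₂) x.2 y.2
  simp only [polar, QuadraticMap.prod_apply, Prod.fst_add, Prod.snd_add]
  ring

variable [Fintype F] [FiniteDimensional F V₁] [FiniteDimensional F V₂]

theorem Mz_prod {Q₁ : QuadraticForm F V₁} {Q₂ : QuadraticForm F V₂} {T₁ : End F V₁} {T₂ : End F V₂}
    (h₁ : Mz Q₁ T₁ r) (h₂ : Mz Q₂ T₂ r) : Mz (Q₁.prod Q₂) (LinearMap.prodMap T₁ T₂ : End F (V₁ × V₂)) r := by
  refine ⟨?_, fun v => ?_⟩
  · rw [polarBilin_prod]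
    exact Oz.prod h₁.oz h₂.oz
  · simp only [QuadraticMap.prod_apply, LinearMap.prodMap_apply, h₁.iso, h₂.iso]

theorem Mz_one {Q₁ : QuadraticForm F V₁} (hN : (polarBilin Q₁).Nondegenerate) : Mz Q₁ 1 r :=
  ⟨⟨polar_symm Q₁, hN, fun _ _ => rfl, one_pow r⟩, fun _ => rfl⟩

end Prod

section Lists

theorem aux_iff₁ (A B C : Prop) (h : ¬ C) : (((A ↔ B) ↔ C) ↔ (A ↔ ¬ B)) := by
  tauto

theorem aux_iff₂ (A C : Prop) (h : C) : ((A ↔ C) ↔ A) := by
  tauto

variable [Fintype F]

open scoped _root_.Classical in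
/-- Models with a fixed part of prescribed type and one field for every member of a list. -/
theorem qmodel_even (hq : Fintype.card F = q) (hr : r.Prime) (hr2 : r ≠ 2) (hrF : (r : F) ≠ 0) (hrq : ¬ r ∣ q)
    {e : ℕ} (hi : orderOf (q : ZMod r) = 2 * e) (he : 0 < e) (a₀ : ℕ) (τ₀ : Prop) (hτ : a₀ = 0 → τ₀) (l : List F[X])
    (hl : ∀ g ∈ l, Irreducible g ∧ g.Monic ∧ g ∣ X ^ r - 1 ∧ ¬ g ∣ X - 1 ∧ g.natDegree = 2 * e) :
    ∃ (V : Type u) (_ : AddCommGroup V) (_ : Module F V) (_ : FiniteDimensional F V)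
      (Q : QuadraticForm F V) (T : End F V), Mz Q T r ∧
      finrank F V = 2 * a₀ + 2 * e * l.length ∧
      Dk T (X - 1 : F[X]) = 2 * a₀ ∧
      (∀ h : F[X], h.Monic → Irreducible h → ¬ h ∣ X - 1 → Dk T h = 2 * e * l.count h) ∧
      (l ≠ [] → ∀ z : F, T ≠ z • 1) ∧ (HyQ Q ↔ (τ₀ ↔ Even l.length)) := by
  have hrq' := dvd_pow_add_one (q := q) hr hi he
  have hrO := hr.odd_of_ne_two hr2
  induction l with
  | nil =>
    obtain ⟨V, i1, i2, i3, Q, hN, hf, hty⟩ := exists_base hq a₀ τ₀ hτ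
    refine ⟨V, i1, i2, i3, Q, 1, Mz_one hN, ?_, ?_, ?_, fun h => absurd rfl h, ?_⟩
    · rw [hf]; simp
    · rw [Dk_one_sub', hf]
    · intro h hm hi h1
      rw [Dk_one]
      · simp
      · intro h0
        apply h1
        have h2 : X - C 1 ∣ h := Polynomial.dvd_iff_isRoot.mpr h0
        have h3 := (Polynomial.irreducible_X_sub_C (1 : F)).dvd_symm hi h2
        simpa using h3
    · simpa using hty
  | cons g l ih =>
    obtain ⟨hg, hgm, hgr, hg1, hgd⟩ := hl g (List.mem_cons_self)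
    obtain ⟨V, _, _, _, Q, T, h, hf, hD, hDh, -, hty⟩ := ih (fun g' hg' => hl g' (List.mem_cons_of_mem _ hg'))
    obtain ⟨V', _, _, _, Q', T', h', hf', hD', hNS'⟩ := exists_line_q hq hg hgr he.ne' hgd hrq' hrO
    have hgPhi : g ∣ Phi F r := by
      have h3 : g ∣ (X - 1) * Phi F r := by
        rw [Phi_mul]
        exact hgr
      exact (hg.prime.dvd_or_dvd h3).resolve_left hg1
    have hK : K1 T' r = ⊤ := by
      apply Submodule.eq_top_of_finrank_eq
      have := hD' (Phi F r)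
      rw [if_pos hgPhi] at this
      unfold Dk at this
      rw [this, hf']
    have hnot : ¬ HyQ Q' := by
      rw [← hyS_top, ← hK, hyS_even h' hq hr hr2 hrF hrq hi he (s := 1) (U := K1 T' r) le_rfl (nd_K1 h'.oz hrF)
        (inv_ker T' _) (by rw [hK, finrank_top, hf', mul_one])]
      simp
    refine ⟨V × V', inferInstance, inferInstance, inferInstance, Q.prod Q', LinearMap.prodMap T T',
      Mz_prod h h', ?_, ?_, ?_, fun _ => not_scalar_prod_right T hNS', ?_⟩
    · rw [Module.finrank_prod, hf, hf', List.length_cons]; ring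
    · rw [Dk_prod, hD, hD', if_neg hg1, add_zero]
    · intro k hkm hki hk1
      rw [Dk_prod, hDh k hkm hki hk1, hD', List.count_cons]
      by_cases hgk : g = k
      · subst hgk
        simp
        ring
      · have h1 : ¬ g ∣ k := by
          intro hdvd
          apply hgk
          exact Polynomial.eq_of_monic_of_associated hgm hkm (hg.associated_of_dvd hki hdvd)
        rw [if_neg h1]
        simp [hgk]
    · rw [hyQ_prod hq h.oz.nondeg h'.oz.nondeg (a := a₀ + e * l.length) (b := e) (by rw [hf]; ring) hf', hty,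
        List.length_cons, Nat.even_add_one]
      exact aux_iff₁ _ _ _ hnot

/-- Models with a fixed part of prescribed type and `s` double fields. -/
theorem qmodel_odd (hq : Fintype.card F = q) {g : F[X]} (hg : Irreducible g) (hgr : g ∣ X ^ r - 1) (hg1 : ¬ g ∣ X - 1)
    (hr : Odd r) (a₀ : ℕ) (τ₀ : Prop) (hτ : a₀ = 0 → τ₀) (s : ℕ) :
    ∃ (V : Type u) (_ : AddCommGroup V) (_ : Module F V) (_ : FiniteDimensional F V)
      (Q : QuadraticForm F V) (T : End F V), Mz Q T r ∧
      finrank F V = 2 * a₀ + 2 * g.natDegree * s ∧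
      Dk T (X - 1 : F[X]) = 2 * a₀ ∧ (0 < s → ∀ z : F, T ≠ z • 1) ∧ (HyQ Q ↔ τ₀) := by
  induction s with
  | zero =>
    obtain ⟨V, i1, i2, i3, Q, hN, hf, hty⟩ := exists_base hq a₀ τ₀ hτ
    refine ⟨V, i1, i2, i3, Q, 1, Mz_one hN, ?_, ?_, fun h => absurd h (lt_irrefl _), hty⟩
    · rw [hf]; simp
    · rw [Dk_one_sub', hf]
  | succ s ih =>
    obtain ⟨V, _, _, _, Q, T, h, hf, hD, -, hty⟩ := ih
    obtain ⟨V', _, _, _, Q', T', h', hf', hD', hNS', hyy⟩ := exists_double_q hq hg hgr hg1 hr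
    refine ⟨V × V', inferInstance, inferInstance, inferInstance, Q.prod Q', LinearMap.prodMap T T',
      Mz_prod h h', ?_, ?_, fun _ => not_scalar_prod_right T hNS', ?_⟩
    · rw [Module.finrank_prod, hf, hf']; ring
    · rw [Dk_prod, hD, hD', add_zero]
    · rw [hyQ_prod hq h.oz.nondeg h'.oz.nondeg (a := a₀ + g.natDegree * s) (b := g.natDegree) (by rw [hf]; ring) hf', hty]
      exact aux_iff₂ _ _ hyy

/-- Transporting a model along an isometry. -/
theorem model_transport {V : Type v} [AddCommGroup V] [Module F V] [FiniteDimensional F V] {Q : QuadraticForm F V}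
    (hN : (polarBilin Q).Nondegenerate) {V' : Type w} [AddCommGroup V'] [Module F V'] [FiniteDimensional F V']
    {Q' : QuadraticForm F V'} {T' : End F V'} (h' : Mz Q' T' r) {l : ℕ} (hd' : finrank F V' = 2 * l)
    (hd : finrank F V = 2 * l) (hty : HyQ Q' ↔ HyQ Q) :
    ∃ (T : End F V) (g : V ≃ₗ[F] V'), Mz Q T r ∧ (∀ x, g (T x) = T' (g x)) ∧ (∀ v, Q' (g v) = Q v) ∧
      ((∀ z : F, T' ≠ z • 1) → T ≠ 1) := by
  obtain ⟨g, hg⟩ := exists_iso_of_hyQ hN h'.oz.nondeg hd hd' hty.symm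
  have hgp : ∀ x y, polarBilin Q' (g x) (g y) = polarBilin Q x y := by
    intro x y
    change polar (⇑Q') (g x) (g y) = polar (⇑Q) x y
    unfold polar
    rw [← map_add, hg, hg, hg]
  obtain ⟨T, hT, hTa, -, hT1⟩ := Cfsg.Agent.Lib.ElusQ.EvenV.conj_of_equiv (polar_symm Q) hN g hgp h'.oz.iso h'.oz.pow
  refine ⟨T, g, ⟨hT, fun v => ?_⟩, hTa, hg, hT1⟩
  rw [← hg, hTa, h'.iso, hg]

end Lists

end Cfsg.Agent.Lib.ElusT.QModel
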