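import Cfsg.Agent.Lib.Classical.OmegaDesc
import Cfsg.Agent.Lib.Classical.QuadOrders
import Cfsg.Agent.Lib.ElusF.Form

/-!
# The type of a nondegenerate even-dimensional quadratic space, in all characteristics
-/

set_option autoImplicit false
set_option linter.unusedSectionVars false
set_option linter.style.haveILetI false
set_option linter.unusedVariables false
set_option linter.unusedSimpArgs false

open Module QuadraticMap

universe u v w

namespace Cfsg.Agent.Lib.ElusT.QType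

open Cfsg Cfsg.Agent.Lib.QuadFn.MaxSingular Cfsg.Agent.Lib.Orth.HypBasis Cfsg.Agent.Lib.Classical.OmegaDesc
  Cfsg.Agent.Lib.Classical.QuadOrders Cfsg.Agent.Lib.ElusF.Form

variable {F : Type u} [Field F] [Fintype F] {V : Type v} [AddCommGroup V] [Module F V]
  [FiniteDimensional F V] {V₂ : Type w} [AddCommGroup V₂] [Module F V₂] [FiniteDimensional F V₂] {q : ℕ}

/-- The existence of a Lagrangian totally singular subspace. -/
def HyQ (Q : QuadraticForm F V) : Prop :=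
  ∃ U : Submodule F V, (∀ u ∈ U, Q u = 0) ∧ 2 * finrank F U = finrank F V

theorem hyQ_of_iso_aux {Q : QuadraticForm F V} {Q₂ : QuadraticForm F V₂} (e : V ≃ₗ[F] V₂)
    (he : ∀ x, Q₂ (e x) = Q x) (h : HyQ Q) : HyQ Q₂ := by
  obtain ⟨U, hU, hd⟩ := h
  refine ⟨U.map (e : V →ₗ[F] V₂), ?_, ?_⟩
  · rintro _ ⟨x, hx, rfl⟩
    change Q₂ (e x) = 0
    rw [he]
    exact hU x hx
  · rw [LinearEquiv.finrank_map_eq, hd]
    exact e.finrank_eq

theorem hyQ_of_iso {Q : QuadraticForm F V} {Q₂ : QuadraticForm F V₂} (e : V ≃ₗ[F] V₂)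
    (he : ∀ x, Q₂ (e x) = Q x) : HyQ Q ↔ HyQ Q₂ :=
  ⟨hyQ_of_iso_aux e he, hyQ_of_iso_aux e.symm (fun x => by
    rw [← he, e.apply_symm_apply])⟩

theorem subsingleton_of_finrank {l : ℕ} (hV : finrank F V = 2 * l) (h0 : l = 0) : Subsingleton V := by
  subst h0
  exact Module.finrank_zero_iff.mp (by simpa using hV)

theorem hyQ_of_zero (Q : QuadraticForm F V) (hV : finrank F V = 0) : HyQ Q :=
  ⟨⊥, fun u hu => by
    rw [(Submodule.mem_bot F).mp hu]
    simp, by simp [hV]⟩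

/-- Spaces of the same dimension and type are isometric. -/
theorem exists_iso_of_hyQ {Q : QuadraticForm F V} {Q₂ : QuadraticForm F V₂}
    (hN : (polarBilin Q).Nondegenerate) (hN₂ : (polarBilin Q₂).Nondegenerate) {l : ℕ}
    (hV : finrank F V = 2 * l) (hV₂ : finrank F V₂ = 2 * l) (hh : HyQ Q ↔ HyQ Q₂) :
    ∃ e : V ≃ₗ[F] V₂, ∀ x, Q₂ (e x) = Q x := by
  classical
  rcases Nat.eq_zero_or_pos l with h0 | hl
  · haveI := subsingleton_of_finrank hV h0
    haveI := subsingleton_of_finrank hV₂ h0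
    refine ⟨LinearEquiv.ofFinrankEq _ _ (by omega), fun x => ?_⟩
    rw [Subsingleton.elim x 0]
    simp
  obtain ⟨k, rfl⟩ : ∃ k, l = k + 1 := ⟨l - 1, by omega⟩
  by_cases h : HyQ Q
  · obtain ⟨U, hU, hd⟩ := h
    obtain ⟨U₂, hU₂, hd₂⟩ := hh.mp ⟨U, hU, hd⟩
    obtain ⟨Θ, hΘ⟩ := exists_equiv_plus_of_ts hN hV (U := U) hU (by omega)
    obtain ⟨Θ₂, hΘ₂⟩ := exists_equiv_plus_of_ts hN₂ hV₂ (U := U₂) hU₂ (by omega)
    refine ⟨Θ.symm.trans Θ₂, fun x => ?_⟩
    have h1 := hΘ (Θ.symm x)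
    rw [Θ.apply_symm_apply] at h1
    rw [LinearEquiv.trans_apply, hΘ₂, h1]
  · have h₂ : ¬ HyQ Q₂ := fun hc => h (hh.mpr hc)
    have hL : ¬ ∃ U : Submodule F V, TS (⇑Q) U ∧ finrank F U = k + 1 := by
      rintro ⟨U, hU, hd⟩
      exact h ⟨U, hU, by omega⟩
    have hL₂ : ¬ ∃ U : Submodule F V₂, TS (⇑Q₂) U ∧ finrank F U = k + 1 := by
      rintro ⟨U, hU, hd⟩
      exact h₂ ⟨U, hU, by omega⟩
    obtain ⟨a, b, hab, hΘ⟩ := exists_equiv_minus hN hV hL
    obtain ⟨Θ, hΘ⟩ := hΘ a b hab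
    obtain ⟨-, -, -, hΘ₂⟩ := exists_equiv_minus hN₂ hV₂ hL₂
    obtain ⟨Θ₂, hΘ₂⟩ := hΘ₂ a b hab
    refine ⟨Θ.symm.trans Θ₂, fun x => ?_⟩
    have h1 := hΘ (Θ.symm x)
    rw [Θ.apply_symm_apply] at h1
    rw [LinearEquiv.trans_apply, hΘ₂, h1]

theorem card_fiber_of_equiv {A : Type*} [AddCommGroup A] [Module F A] {f : A → F} {Q : QuadraticForm F V}
    (Θ : A ≃ₗ[F] V) (h : ∀ x, Q (Θ x) = f x) (c : F) :
    Nat.card {x // f x = c} = Nat.card {v // Q v = c} :=
  Nat.card_congr ⟨fun x => ⟨Θ x.1, by rw [h]; exact x.2⟩,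
    fun v => ⟨Θ.symm v.1, by rw [← h, Θ.apply_symm_apply]; exact v.2⟩,
    fun x => Subtype.ext (by simp), fun v => Subtype.ext (by simp)⟩

open scoped _root_.Classical in
/-- The sign of a quadratic space. -/
noncomputable def eps (Q : QuadraticForm F V) : ℤ := if HyQ Q then 1 else -1

theorem eps_of_hy {Q : QuadraticForm F V} (h : HyQ Q) : eps Q = 1 := by
  unfold eps
  exact if_pos h

theorem eps_of_not {Q : QuadraticForm F V} (h : ¬ HyQ Q) : eps Q = -1 := by
  unfold eps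
  exact if_neg h

theorem hy_iff_eps {Q : QuadraticForm F V} : HyQ Q ↔ eps Q = 1 := by
  constructor
  · exact eps_of_hy
  · intro h
    by_contra hc
    rw [eps_of_not hc] at h
    omega

/-- The number of singular vectors. -/
theorem card_sing_eps (hq : Fintype.card F = q) {Q : QuadraticForm F V} (hN : (polarBilin Q).Nondegenerate)
    {l : ℕ} (hV : finrank F V = 2 * l) :
    (q : ℤ) * (Nat.card {v // Q v = 0} : ℤ) = (q : ℤ) ^ (2 * l) + eps Q * ((q : ℤ) - 1) * (q : ℤ) ^ l := by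
  classical
  have hq' : Nat.card F = q := by rw [Nat.card_eq_fintype_card, hq]
  rcases Nat.eq_zero_or_pos l with h0 | hl
  · haveI := subsingleton_of_finrank hV h0
    subst h0
    rw [eps_of_hy (hyQ_of_zero Q (by simpa using hV))]
    have : Nat.card {v // Q v = 0} = 1 := by
      rw [Nat.card_eq_one_iff_unique]
      exact ⟨⟨fun a b => Subtype.ext (Subsingleton.elim _ _)⟩, ⟨⟨0, by simp⟩⟩⟩
    rw [this]
    simp
  obtain ⟨k, rfl⟩ : ∃ k, l = k + 1 := ⟨l - 1, by omega⟩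
  by_cases h : HyQ Q
  · rw [eps_of_hy h]
    obtain ⟨U, hU, hd⟩ := h
    obtain ⟨Θ, hΘ⟩ := exists_equiv_plus_of_ts hN hV (U := U) hU (by omega)
    have h1 := card_zero_plus hq' k
    rw [card_fiber_of_equiv Θ hΘ 0] at h1
    have h2 := congrArg (Nat.cast : ℕ → ℤ) h1
    push_cast at h2
    linear_combination (q : ℤ) * h2
  · rw [eps_of_not h]
    have hL : ¬ ∃ U : Submodule F V, TS (⇑Q) U ∧ finrank F U = k + 1 := by
      rintro ⟨U, hU, hd⟩
      exact h ⟨U, hU, by omega⟩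
    obtain ⟨a, b, hab, hΘ⟩ := exists_equiv_minus hN hV hL
    obtain ⟨Θ, hΘ⟩ := hΘ a b hab
    have h1 := card_zero_minus hq' hab k
    rw [card_fiber_of_equiv Θ hΘ 0] at h1
    have h2 := congrArg (Nat.cast : ℕ → ℤ) h1
    push_cast at h2
    linear_combination (q : ℤ) * h2

/-- Scaling. -/
theorem card_fiber_eq {Q : QuadraticForm F V} (hN : (polarBilin Q).Nondegenerate) {l : ℕ}
    (hV : finrank F V = 2 * l) {c : F} (hc : c ≠ 0) :
    Nat.card {v // Q v = c} = Nat.card {v // Q v = 1} := by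
  classical
  set Q' : QuadraticForm F V := c⁻¹ • Q with hQ'
  have hQ'a : ∀ x, Q' x = c⁻¹ * Q x := fun x => by simp [hQ']
  have hN' : (polarBilin Q').Nondegenerate := by
    apply Cfsg.Agent.Lib.Classical.QuadHyp.nondeg_of_sep
    intro x hx
    apply hN.1
    intro y
    have h1 := hx y
    change polar (⇑Q') x y = 0 at h1
    change polar (⇑Q) x y = 0
    unfold polar at h1 ⊢
    simp only [hQ'a] at h1
    have h2 : c⁻¹ * (Q (x + y) - Q x - Q y) = 0 := by linear_combination h1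
    exact (mul_eq_zero.mp h2).resolve_left (inv_ne_zero hc)
  have hh : HyQ Q ↔ HyQ Q' := by
    have hz : ∀ x, Q' x = 0 ↔ Q x = 0 := fun x => by
      rw [hQ'a]
      simp [hc]
    constructor
    · rintro ⟨U, hU, hd⟩
      exact ⟨U, fun u hu => (hz u).mpr (hU u hu), hd⟩
    · rintro ⟨U, hU, hd⟩
      exact ⟨U, fun u hu => (hz u).mp (hU u hu), hd⟩
  obtain ⟨e, he⟩ := exists_iso_of_hyQ hN hN' hV hV hh
  have he' : ∀ x, Q (e x) = c * Q x := by
    intro x
    have h1 := he x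
    rw [hQ'a] at h1
    rw [← h1]
    field_simp
  refine Nat.card_congr ⟨fun v => ⟨e.symm v.1, ?_⟩, fun v => ⟨e v.1, ?_⟩, fun v => Subtype.ext (by simp), fun v => Subtype.ext (by simp)⟩
  · have h1 := he' (e.symm v.1)
    rw [e.apply_symm_apply, v.2] at h1
    have h2 : c * (1 - Q (e.symm v.1)) = 0 := by linear_combination h1
    have h3 := (mul_eq_zero.mp h2).resolve_left hc
    linear_combination -h3
  · rw [he', v.2, mul_one]

/-- All values add up. -/
theorem card_total (hq : Fintype.card F = q) {Q : QuadraticForm F V} (hN : (polarBilin Q).Nondegenerate) {l : ℕ}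
    (hV : finrank F V = 2 * l) :
    Nat.card {v // Q v = 0} + (q - 1) * Nat.card {v // Q v = 1} = q ^ (2 * l) := by
  classical
  haveI : Finite V := Module.finite_of_finite F
  have h1 : Nat.card V = ∑ c : F, Nat.card {v // Q v = c} := by
    rw [← Nat.card_sigma]
    exact Nat.card_congr (Equiv.sigmaFiberEquiv (fun v => Q v)).symm
  have h2 : Nat.card V = q ^ (2 * l) := by
    rw [Module.natCard_eq_pow_finrank (K := F), hV, Nat.card_eq_fintype_card, hq]
  rw [← h2, h1, ← Finset.add_sum_erase Finset.univ _ (Finset.mem_univ (0 : F))]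
  congr 1
  rw [Finset.sum_congr rfl (fun c hc => card_fiber_eq hN hV (Finset.ne_of_mem_erase hc)), Finset.sum_const,
    Finset.card_erase_of_mem (Finset.mem_univ _), Finset.card_univ, hq, smul_eq_mul]

theorem two_le_q (hq : Fintype.card F = q) : 2 ≤ q := by
  rw [← hq]
  exact Fintype.one_lt_card

/-- The number of vectors of norm one. -/
theorem card_one_eps (hq : Fintype.card F = q) {Q : QuadraticForm F V} (hN : (polarBilin Q).Nondegenerate)
    {l : ℕ} (hV : finrank F V = 2 * l) :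
    (q : ℤ) * (Nat.card {v // Q v = 1} : ℤ) = (q : ℤ) ^ (2 * l) - eps Q * (q : ℤ) ^ l := by
  have h2q := two_le_q hq
  have h1 := card_total hq hN hV
  have h3 := card_sing_eps hq hN hV
  have h4 := congrArg (Nat.cast : ℕ → ℤ) h1
  push_cast [Nat.cast_sub (show 1 ≤ q by omega)] at h4
  have hne : (q : ℤ) - 1 ≠ 0 := by
    have : (2 : ℤ) ≤ q := by exact_mod_cast h2q
    omega
  apply mul_left_cancel₀ hne
  linear_combination (q : ℤ) * h4 - h3

theorem polar_prod (Q₁ : QuadraticForm F V) (Q₂ : QuadraticForm F V₂) (x y : V × V₂) :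
    polar (⇑(Q₁.prod Q₂)) x y = polar (⇑Q₁) x.1 y.1 + polar (⇑Q₂) x.2 y.2 := by
  simp only [polar, QuadraticMap.prod_apply, Prod.fst_add, Prod.snd_add]
  ring

theorem prod_nondeg {Q₁ : QuadraticForm F V} {Q₂ : QuadraticForm F V₂} (h₁ : (polarBilin Q₁).Nondegenerate)
    (h₂ : (polarBilin Q₂).Nondegenerate) : (polarBilin (Q₁.prod Q₂)).Nondegenerate := by
  apply Cfsg.Agent.Lib.Classical.QuadHyp.nondeg_of_sep
  intro x hx
  apply Prod.ext
  · apply h₁.1
    intro y
    have := hx (y, 0)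
    change polar (⇑(Q₁.prod Q₂)) x (y, 0) = 0 at this
    rw [polar_prod] at this
    simpa using this
  · apply h₂.1
    intro y
    have := hx (0, y)
    change polar (⇑(Q₁.prod Q₂)) x (0, y) = 0 at this
    rw [polar_prod] at this
    simpa using this

/-- The sign is multiplicative. -/
theorem eps_prod (hq : Fintype.card F = q) {Q₁ : QuadraticForm F V} {Q₂ : QuadraticForm F V₂}
    (h₁ : (polarBilin Q₁).Nondegenerate) (h₂ : (polarBilin Q₂).Nondegenerate) {a b : ℕ}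
    (ha : finrank F V = 2 * a) (hb : finrank F V₂ = 2 * b) :
    eps (Q₁.prod Q₂) = eps Q₁ * eps Q₂ := by
  classical
  haveI : Finite V := Module.finite_of_finite F
  haveI : Finite V₂ := Module.finite_of_finite F
  have h2q := two_le_q hq
  have hN := prod_nondeg h₁ h₂
  have hd : finrank F (V × V₂) = 2 * (a + b) := by
    rw [Module.finrank_prod, ha, hb]
    ring
  have hc : Nat.card {p : V × V₂ // Q₁.prod Q₂ p = 0} =
      Nat.card {v // Q₁ v = 0} * Nat.card {v // Q₂ v = 0} +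
        (q - 1) * (Nat.card {v // Q₁ v = 1} * Nat.card {v // Q₂ v = 1}) := by
    have e : {p : V × V₂ // Q₁.prod Q₂ p = 0} ≃ Σ c : F, ({x // Q₁ x = c} × {y // Q₂ y = -c}) :=
      { toFun := fun p => ⟨Q₁ p.1.1, (⟨p.1.1, rfl⟩, ⟨p.1.2, by
            have := p.2
            rw [QuadraticMap.prod_apply] at this
            linear_combination this⟩)⟩
        invFun := fun s => ⟨(s.2.1.1, s.2.2.1), by
            rw [QuadraticMap.prod_apply, s.2.1.2, s.2.2.2]
            ring⟩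
        left_inv := fun p => rfl
        right_inv := by
          rintro ⟨c, ⟨x, rfl⟩, ⟨y, hy⟩⟩
          rfl }
    rw [Nat.card_congr e, Nat.card_sigma, ← Finset.add_sum_erase Finset.univ _ (Finset.mem_univ (0 : F))]
    simp only [Nat.card_prod, neg_zero]
    congr 1
    rw [Finset.sum_congr rfl (fun c hc => by
      rw [card_fiber_eq h₁ ha (Finset.ne_of_mem_erase hc),
        card_fiber_eq h₂ hb (neg_ne_zero.mpr (Finset.ne_of_mem_erase hc))]), Finset.sum_const,
      Finset.card_erase_of_mem (Finset.mem_univ _), Finset.card_univ, hq, smul_eq_mul]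
  have h3 := card_sing_eps hq hN hd
  rw [hc] at h3
  push_cast [Nat.cast_sub (show 1 ≤ q by omega)] at h3
  have h01 := card_sing_eps hq h₁ ha
  have h02 := card_sing_eps hq h₂ hb
  have h11 := card_one_eps hq h₁ ha
  have h12 := card_one_eps hq h₂ hb
  set A0 : ℤ := (Nat.card {v // Q₁ v = 0} : ℤ)
  set B0 : ℤ := (Nat.card {v // Q₂ v = 0} : ℤ)
  set A1 : ℤ := (Nat.card {v // Q₁ v = 1} : ℤ)
  set B1 : ℤ := (Nat.card {v // Q₂ v = 1} : ℤ)
  set Q' : ℤ := (q : ℤ) with hQ'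
  have hQ2 : (2 : ℤ) ≤ Q' := by
    rw [hQ']
    exact_mod_cast h2q
  have hQp : ∀ n : ℕ, Q' ^ n ≠ 0 := fun n => pow_ne_zero _ (by omega)
  have key : Q' * ((Q' - 1) * Q' ^ (a + b)) * (eps (Q₁.prod Q₂) - eps Q₁ * eps Q₂) = 0 := by
    have h2ab : Q' ^ (2 * (a + b)) = Q' ^ (2 * a) * Q' ^ (2 * b) := by ring
    have hab : Q' ^ (a + b) = Q' ^ a * Q' ^ b := by ring
    have e1 : Q' * (Q' * (A0 * B0 + (Q' - 1) * (A1 * B1))) =
        (Q' * A0) * (Q' * B0) + (Q' - 1) * ((Q' * A1) * (Q' * B1)) := by ring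
    have e2 : Q' * (Q' * (A0 * B0 + (Q' - 1) * (A1 * B1))) = Q' * (Q' ^ (2 * (a + b)) + eps (Q₁.prod Q₂) * (Q' - 1) * Q' ^ (a + b)) := by
      rw [h3]
    rw [h01, h02, h11, h12] at e1
    rw [e2, h2ab, hab] at e1
    rw [hab]
    linear_combination e1
  have hne : Q' * ((Q' - 1) * Q' ^ (a + b)) ≠ 0 :=
    mul_ne_zero (by omega) (mul_ne_zero (by omega) (hQp _))
  have := (mul_eq_zero.mp key).resolve_left hne
  linarith

/-- The type of a product. -/
theorem hyQ_prod (hq : Fintype.card F = q) {Q₁ : QuadraticForm F V} {Q₂ : QuadraticForm F V₂}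
    (h₁ : (polarBilin Q₁).Nondegenerate) (h₂ : (polarBilin Q₂).Nondegenerate) {a b : ℕ}
    (ha : finrank F V = 2 * a) (hb : finrank F V₂ = 2 * b) :
    HyQ (Q₁.prod Q₂) ↔ (HyQ Q₁ ↔ HyQ Q₂) := by
  rw [hy_iff_eps, eps_prod hq h₁ h₂ ha hb]
  by_cases h1 : HyQ Q₁ <;> by_cases h2 : HyQ Q₂ <;>
    simp [h1, h2, eps_of_hy, eps_of_not]

end Cfsg.Agent.Lib.ElusT.QType
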